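import Mathlib

/-!
# A small reflective checker for polynomial identities in characteristic two

Monomials are encoded as natural numbers in a mixed radix; a polynomial is a list of monomials. A sum of products of
polynomials vanishes if the exclusive or of the corresponding bit masks is zero (and no carries occur).
-/

set_option autoImplicit false

namespace Cfsg.Agent.H482.F2Poly

/-- Value of the monomial `i` (mixed radix `Rs`) at the point `vs`. -/
def evM {K : Type*} [CommRing K] : List ℕ → List K → ℕ → K
  | R :: Rs, v :: vs, i => v ^ (i % R) * evM Rs vs (i / R)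
  | _, _, _ => 1

/-- Value of a polynomial. -/
def evP {K : Type*} [CommRing K] (Rs : List ℕ) (vs : List K) : List ℕ → K
  | [] => 0
  | m :: L => evM Rs vs m + evP Rs vs L

/-- All digits of `i` are bounded by the given list. -/
def degLe : List ℕ → List ℕ → ℕ → Bool
  | R :: Rs, b :: bs, i => Nat.ble (i % R) b && degLe Rs bs (i / R)
  | [], [], i => Nat.beq i 0
  | _, _, _ => false

/-- A polynomial all of whose monomials are bounded. -/
def allDeg (Rs bs : List ℕ) : List ℕ → Bool
  | [] => true
  | m :: L => degLe Rs bs m && allDeg Rs bs L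

/-- Sum of the bounds. -/
def addB : List ℕ → List ℕ → List ℕ
  | a :: as, b :: bs => (a + b) :: addB as bs
  | _, _ => []

/-- The bounds are below the radices. -/
def okB : List ℕ → List ℕ → Bool
  | R :: Rs, b :: bs => Nat.ble (b + 1) R && okB Rs bs
  | [], [] => true
  | _, _ => false

theorem evM_add {K : Type*} [CommRing K] : ∀ (Rs : List ℕ) (vs : List K) (as bs : List ℕ) (i j : ℕ),
    degLe Rs as i = true → degLe Rs bs j = true → okB Rs (addB as bs) = true →
    evM Rs vs (i + j) = evM Rs vs i * evM Rs vs j ∧ degLe Rs (addB as bs) (i + j) = true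
  | [], vs, as, bs, i, j => by
    intro hi hj hk
    cases as with
    | cons a as => simp [degLe] at hi
    | nil =>
      cases bs with
      | cons b bs => simp [degLe] at hj
      | nil =>
        simp only [degLe] at hi hj
        have hi := Nat.eq_of_beq_eq_true hi
        have hj := Nat.eq_of_beq_eq_true hj
        subst hi; subst hj
        simp [evM, addB, degLe]
  | R :: Rs, vs, as, bs, i, j => by
    intro hi hj hk
    cases as with
    | nil => simp [degLe] at hi
    | cons a as =>
      cases bs with
      | nil => simp [degLe] at hj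
      | cons b bs =>
        simp only [degLe, Bool.and_eq_true, Nat.ble_eq] at hi hj
        simp only [addB, okB, Bool.and_eq_true, Nat.ble_eq] at hk
        have hR : 0 < R := by omega
        have h1 : (i + j) % R = i % R + j % R := by
          rw [Nat.add_mod, Nat.mod_eq_of_lt]; omega
        have h2 : (i + j) / R = i / R + j / R := by
          rw [Nat.add_div hR, if_neg (by omega)]; rfl
        cases vs with
        | nil =>
          obtain ⟨h3, h4⟩ := evM_add Rs ([] : List K) as bs (i / R) (j / R) hi.2 hj.2 hk.2
          refine ⟨by simp [evM], ?_⟩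
          simp only [addB, degLe, Bool.and_eq_true, Nat.ble_eq]
          rw [h1, h2]
          exact ⟨by omega, h4⟩
        | cons v vs =>
          obtain ⟨h3, h4⟩ := evM_add Rs vs as bs (i / R) (j / R) hi.2 hj.2 hk.2
          refine ⟨?_, ?_⟩
          · simp only [evM]
            rw [h1, h2, h3, pow_add]; ring
          · simp only [addB, degLe, Bool.and_eq_true, Nat.ble_eq]
            rw [h1, h2]
            exact ⟨by omega, h4⟩

/-- Full expansion of a product of polynomials as a list of monomials. -/
def expand : List (List ℕ) → List ℕ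
  | [] => [0]
  | a :: rest => a.flatMap fun m => (expand rest).map (m + ·)

theorem evP_append {K : Type*} [CommRing K] (Rs : List ℕ) (vs : List K) (L L' : List ℕ) :
    evP Rs vs (L ++ L') = evP Rs vs L + evP Rs vs L' := by
  induction L with
  | nil => simp [evP]
  | cons m L ih => simp [evP, ih, add_assoc]

/-- The product of the values of the factors. -/
def evProd {K : Type*} [CommRing K] (Rs : List ℕ) (vs : List K) : List (List ℕ) → K
  | [] => 1
  | a :: rest => evP Rs vs a * evProd Rs vs rest

/-- Check of the degree bounds: `t` is a product of polynomials with explicit bounds. -/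
def bnd (Rs : List ℕ) : List (List ℕ × List ℕ) → List ℕ
  | [] => Rs.map fun _ => 0
  | p :: rest => addB p.1 (bnd Rs rest)

/-- All factors satisfy their degree bounds and the partial sums of the bounds are below the radices. -/
def okT (Rs : List ℕ) : List (List ℕ × List ℕ) → Bool
  | [] => true
  | p :: rest => allDeg Rs p.1 p.2 && okB Rs (addB p.1 (bnd Rs rest)) && okT Rs rest

theorem degLe_zero : ∀ Rs : List ℕ, degLe Rs (Rs.map fun _ => 0) 0 = true
  | [] => rfl
  | R :: Rs => by
    simp only [List.map_cons, degLe, Nat.zero_mod, Nat.zero_div, Bool.and_eq_true, Nat.ble_eq, le_refl, true_and]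
    exact degLe_zero Rs

theorem evM_zero {K : Type*} [CommRing K] : ∀ (Rs : List ℕ) (vs : List K), evM Rs vs 0 = 1
  | [], _ => by simp [evM]
  | R :: Rs, [] => by simp [evM]
  | R :: Rs, v :: vs => by simp [evM, evM_zero Rs vs]

theorem expand_ok {K : Type*} [CommRing K] (Rs : List ℕ) (vs : List K) :
    ∀ t : List (List ℕ × List ℕ), okT Rs t = true →
      evP Rs vs (expand (t.map Prod.snd)) = evProd Rs vs (t.map Prod.snd) ∧
      allDeg Rs (bnd Rs t) (expand (t.map Prod.snd)) = true
  | [], _ => by
    refine ⟨by simp [expand, evP, evProd, evM_zero], ?_⟩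
    simp only [List.map_nil, expand, allDeg, bnd, Bool.and_true]
    exact degLe_zero Rs
  | p :: rest, h => by
    simp only [okT, Bool.and_eq_true] at h
    obtain ⟨⟨h1, h2⟩, h3⟩ := h
    obtain ⟨h4, h5⟩ := expand_ok Rs vs rest h3
    simp only [List.map_cons, expand, evProd, bnd]
    rw [← h4]
    generalize expand (rest.map Prod.snd) = E at h5 ⊢
    generalize bnd Rs rest = B at h2 h5 ⊢
    have key : ∀ (m : ℕ), degLe Rs p.1 m = true → ∀ E : List ℕ, allDeg Rs B E = true →
        evP Rs vs (E.map (m + ·)) = evM Rs vs m * evP Rs vs E ∧
        allDeg Rs (addB p.1 B) (E.map (m + ·)) = true := by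
      intro m hm E hE
      induction E with
      | nil => simp [evP, allDeg]
      | cons n E ih =>
        simp only [allDeg, Bool.and_eq_true] at hE
        obtain ⟨i1, i2⟩ := ih hE.2
        obtain ⟨j1, j2⟩ := evM_add Rs vs p.1 B m n hm hE.1 h2
        refine ⟨?_, ?_⟩
        · simp only [List.map_cons, evP]
          rw [i1, j1]; ring
        · simp only [List.map_cons, allDeg, Bool.and_eq_true]
          exact ⟨j2, i2⟩
    have happ : ∀ L L' : List ℕ, allDeg Rs (addB p.1 B) L = true → allDeg Rs (addB p.1 B) L' = true →
        allDeg Rs (addB p.1 B) (L ++ L') = true := by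
      intro L L' hL hL'
      induction L with
      | nil => simpa using hL'
      | cons m L ih =>
        simp only [allDeg, Bool.and_eq_true, List.cons_append] at hL ⊢
        exact ⟨hL.1, ih hL.2⟩
    generalize p.2 = a at h1 ⊢
    induction a with
    | nil => simp [evP, allDeg]
    | cons m a ih =>
      simp only [allDeg, Bool.and_eq_true] at h1
      obtain ⟨i1, i2⟩ := ih h1.2
      obtain ⟨j1, j2⟩ := key m h1.1 E h5
      refine ⟨?_, ?_⟩
      · rw [List.flatMap_cons, evP_append, i1, j1]
        simp only [evP]; ring
      · rw [List.flatMap_cons]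
        exact happ _ _ j2 i2

/-- Parity of the number of occurrences. -/
def par : List ℕ → ℕ → Bool
  | [], _ => false
  | m :: L, i => (m == i) ^^ par L i

theorem par_append (L L' : List ℕ) (i : ℕ) : par (L ++ L') i = (par L i ^^ par L' i) := by
  induction L with
  | nil => simp [par]
  | cons m L ih => simp [par, ih]

theorem par_map_add (m : ℕ) (L : List ℕ) (i : ℕ) :
    par (L.map (m + ·)) i = (decide (m ≤ i) && par L (i - m)) := by
  induction L with
  | nil => simp [par]
  | cons n L ih =>
    simp only [List.map_cons, par, ih]
    by_cases h : m ≤ i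
    · simp only [h, decide_true, Bool.true_and]
      congr 1
      rw [Bool.eq_iff_iff, beq_iff_eq, beq_iff_eq]
      omega
    · simp only [h, decide_false, Bool.false_and, Bool.xor_false]
      rw [beq_eq_false_iff_ne]; omega

theorem evP_eq_sum {K : Type*} [CommRing K] [CharP K 2] (Rs : List ℕ) (vs : List K) (B : ℕ) :
    ∀ L : List ℕ, (∀ m ∈ L, m < B) →
      evP Rs vs L = ∑ i ∈ Finset.range B, if par L i then evM Rs vs i else 0
  | [], _ => by simp [evP, par]
  | m :: L, h => by
    rw [evP, evP_eq_sum Rs vs B L fun n hn => h n (List.mem_cons_of_mem _ hn)]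
    have hm : m ∈ Finset.range B := Finset.mem_range.2 (h m List.mem_cons_self)
    have h1 : evM Rs vs m = ∑ i ∈ Finset.range B, if m = i then evM Rs vs i else 0 := by
      rw [Finset.sum_ite_eq, if_pos hm]
    rw [h1, ← Finset.sum_add_distrib]
    refine Finset.sum_congr rfl fun i _ => ?_
    simp only [par]
    by_cases h2 : m = i
    · subst h2
      by_cases h3 : par L m = true
      · simp only [h3, if_true, beq_self_eq_true, Bool.xor_true, Bool.not_true, Bool.false_eq_true, if_false]
        exact CharTwo.add_self_eq_zero _
      · simp only [Bool.not_eq_true] at h3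
        simp [h3]
    · have : (m == i) = false := by rw [beq_eq_false_iff_ne]; exact h2
      simp [this, h2]

theorem evP_eq_zero {K : Type*} [CommRing K] [CharP K 2] (Rs : List ℕ) (vs : List K) (L : List ℕ)
    (h : ∀ i, par L i = false) : evP Rs vs L = 0 := by
  have hB : ∀ m ∈ L, m < L.foldr max 0 + 1 := by
    intro m hm
    induction L with
    | nil => simp at hm
    | cons n L ih =>
      clear h
      have : ∀ L : List ℕ, ∀ m ∈ L, m ≤ L.foldr max 0 := by
        intro L m hm
        induction L with
        | nil => simp at hm
        | cons n L ih =>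
          rw [List.foldr_cons]
          rcases List.mem_cons.1 hm with rfl | hm
          · exact le_max_left _ _
          · exact (ih hm).trans (le_max_right _ _)
      exact Nat.lt_succ_of_le (this _ m hm)
  rw [evP_eq_sum Rs vs _ L hB]
  simp [h]

/-- Bit mask of a product of polynomials. -/
def pbits : List (List ℕ) → ℕ
  | [] => 1
  | a :: rest => a.foldl (fun acc m => Nat.xor acc (Nat.shiftLeft (pbits rest) m)) 0

theorem testBit_foldl (P : ℕ) (E : List ℕ) (hE : ∀ i, P.testBit i = par E i) (a : List ℕ) :
    ∀ (acc : ℕ) (L : List ℕ), (∀ i, acc.testBit i = par L i) → ∀ i,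
      (a.foldl (fun acc m => Nat.xor acc (Nat.shiftLeft P m)) acc).testBit i =
        par (L ++ a.flatMap fun m => E.map (m + ·)) i := by
  induction a with
  | nil => intro acc L h i; simp [h]
  | cons m a ih =>
    intro acc L h i
    rw [List.foldl_cons, ih _ (L ++ E.map (m + ·))]
    · rw [List.flatMap_cons, List.append_assoc]
    · intro i
      rw [par_append, par_map_add, ← h, ← hE]
      change (acc ^^^ (P <<< m)).testBit i = _
      rw [Nat.testBit_xor, Nat.testBit_shiftLeft]

theorem testBit_pbits : ∀ (t : List (List ℕ)) (i : ℕ), (pbits t).testBit i = par (expand t) i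
  | [], i => by
    simp only [pbits, expand, par, Bool.xor_false]
    cases i with
    | zero => rfl
    | succ i => rw [Nat.testBit_succ]; simp
  | a :: rest, i => by
    have := testBit_foldl (pbits rest) (expand rest) (testBit_pbits rest) a 0 []
      (by intro i; simp [par]) i
    simpa [pbits, expand] using this

/-- Bit mask of a sum of products. -/
def sbits : List (List (List ℕ × List ℕ)) → ℕ
  | [] => 0
  | t :: ts => Nat.xor (pbits (t.map Prod.snd)) (sbits ts)

/-- All degree checks. -/
def okS (Rs : List ℕ) : List (List (List ℕ × List ℕ)) → Bool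
  | [] => true
  | t :: ts => okT Rs t && okS Rs ts

/-- The value of a sum of products. -/
def evS {K : Type*} [CommRing K] (Rs : List ℕ) (vs : List K) : List (List (List ℕ × List ℕ)) → K
  | [] => 0
  | t :: ts => evProd Rs vs (t.map Prod.snd) + evS Rs vs ts

/-- The checker. -/
def check (Rs : List ℕ) (ts : List (List (List ℕ × List ℕ))) : Bool := Nat.beq (sbits ts) 0 && okS Rs ts

theorem evS_eq_zero {K : Type*} [CommRing K] [CharP K 2] (Rs : List ℕ) (vs : List K)
    (ts : List (List (List ℕ × List ℕ))) (h : check Rs ts = true) : evS Rs vs ts = 0 := by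
  simp only [check, Bool.and_eq_true] at h
  obtain ⟨h0, hok⟩ := h
  have h0 := Nat.eq_of_beq_eq_true h0
  have key : ∀ ts : List (List (List ℕ × List ℕ)), okS Rs ts = true →
      ∃ L : List ℕ, evP Rs vs L = evS Rs vs ts ∧ ∀ i, (sbits ts).testBit i = par L i := by
    intro ts
    induction ts with
    | nil => intro _; exact ⟨[], by simp [evP, evS], by intro i; simp [sbits, par]⟩
    | cons t ts ih =>
      intro h
      simp only [okS, Bool.and_eq_true] at h
      obtain ⟨L, h1, h2⟩ := ih h.2
      refine ⟨expand (t.map Prod.snd) ++ L, ?_, ?_⟩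
      · rw [evP_append, h1, (expand_ok Rs vs t h.1).1]; rfl
      · intro i
        rw [par_append, ← h2, ← testBit_pbits]
        change ((pbits (t.map Prod.snd)) ^^^ (sbits ts)).testBit i = _
        rw [Nat.testBit_xor]
  obtain ⟨L, h1, h2⟩ := key ts hok
  rw [← h1]
  apply evP_eq_zero
  intro i
  rw [← h2, h0]
  simp

end Cfsg.Agent.H482.F2Poly
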