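import Cfsg.Agent.H482.F2Poly

/-!
# The basic relations of the Suzuki parametrisation (generated)

Variables `x, X`; `u = 1 + X + x X`, `v = 1 + x^2 + x^2 X`.
-/

set_option autoImplicit false
set_option maxRecDepth 100000

namespace Cfsg.Agent.H482.SzBase

open Cfsg.Agent.H482.F2Poly

variable {K : Type*} [CommRing K]

/-- Radices. -/
def Rs : List ℕ := [23, 17]

/-- atom -/
def a_x : List ℕ × List ℕ := ([1, 0], [1])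

/-- atom -/
def a_X : List ℕ × List ℕ := ([0, 1], [23])

/-- atom -/
def a_u : List ℕ × List ℕ := ([1, 1], [0, 23, 24])

/-- atom -/
def a_v : List ℕ × List ℕ := ([2, 1], [0, 2, 25])

/-- atom -/
def a_A : List ℕ × List ℕ := ([4, 2], [0, 49, 50])

/-- atom -/
def a_B : List ℕ × List ℕ := ([4, 4], [0, 73, 96])

/-- atom -/
def a_m : List ℕ × List ℕ := ([4, 2], [0, 25, 48, 50])

/-- atom -/
def a_n : List ℕ × List ℕ := ([4, 4], [0, 48, 50, 96])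

theorem ev_a_x (x X : K) : evP Rs [x, X] a_x.2 = x := by
  simp only [a_x, Rs, evP, evM, Nat.reduceMod, Nat.reduceDiv, pow_zero, pow_one, one_mul, mul_one, add_zero] <;> ring

theorem ev_a_X (x X : K) : evP Rs [x, X] a_X.2 = X := by
  simp only [a_X, Rs, evP, evM, Nat.reduceMod, Nat.reduceDiv, pow_zero, pow_one, one_mul, mul_one, add_zero] <;> ring

theorem ev_a_u (x X : K) : evP Rs [x, X] a_u.2 = x * X + X + 1 := by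
  simp only [a_u, Rs, evP, evM, Nat.reduceMod, Nat.reduceDiv, pow_zero, pow_one, one_mul, mul_one, add_zero] <;> ring

theorem ev_a_v (x X : K) : evP Rs [x, X] a_v.2 = x ^ 2 * X + x ^ 2 + 1 := by
  simp only [a_v, Rs, evP, evM, Nat.reduceMod, Nat.reduceDiv, pow_zero, pow_one, one_mul, mul_one, add_zero] <;> ring

theorem ev_a_A (x X : K) : evP Rs [x, X] a_A.2 = x ^ 4 * X ^ 2 + x ^ 3 * X ^ 2 + 1 := by
  simp only [a_A, Rs, evP, evM, Nat.reduceMod, Nat.reduceDiv, pow_zero, pow_one, one_mul, mul_one, add_zero] <;> ring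

theorem ev_a_B (x X : K) : evP Rs [x, X] a_B.2 = x ^ 4 * X ^ 4 + x ^ 4 * X ^ 3 + 1 := by
  simp only [a_B, Rs, evP, evM, Nat.reduceMod, Nat.reduceDiv, pow_zero, pow_one, one_mul, mul_one, add_zero] <;> ring

theorem ev_a_m (x X : K) : evP Rs [x, X] a_m.2 = x ^ 4 * X ^ 2 + x ^ 2 * X ^ 2 + x ^ 2 * X + 1 := by
  simp only [a_m, Rs, evP, evM, Nat.reduceMod, Nat.reduceDiv, pow_zero, pow_one, one_mul, mul_one, add_zero] <;> ring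

theorem ev_a_n (x X : K) : evP Rs [x, X] a_n.2 = x ^ 4 * X ^ 4 + x ^ 4 * X ^ 2 + x ^ 2 * X ^ 2 + 1 := by
  simp only [a_n, Rs, evP, evM, Nat.reduceMod, Nat.reduceDiv, pow_zero, pow_one, one_mul, mul_one, add_zero] <;> ring

/-- relation 0 -/
def N0 : List (List (List ℕ × List ℕ)) :=
  [[a_m, a_m, a_n],
    [a_x, a_x, a_X, a_X, a_v, a_m, a_n],
    [a_x, a_x, a_X, a_B, a_m, a_n],
    [a_x, a_x, a_x, a_x, a_X, a_X, a_X, a_X, a_v, a_m, a_n],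
    [a_B, a_m, a_n]]

theorem check0 : check Rs N0 = true := by decide +kernel

/-- relation 1 -/
def N1 : List (List (List ℕ × List ℕ)) :=
  [[a_m, a_m, a_n],
    [a_B, a_m, a_n],
    [a_x, a_x, a_X, a_m, a_m, a_n],
    [a_x, a_x, a_x, a_x, a_X, a_X, a_X, a_v, a_m, a_n],
    [a_x, a_x, a_X, a_X, a_m, a_m, a_n]]

theorem check1 : check Rs N1 = true := by decide +kernel

/-- relation 2 -/
def N2 : List (List (List ℕ × List ℕ)) :=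
  [[a_x, a_x, a_x, a_x, a_x, a_x, a_X, a_X, a_X, a_X, a_u, a_u, a_v, a_m, a_n],
    [a_m, a_n, a_m, a_n],
    [a_x, a_x, a_x, a_x, a_x, a_x, a_X, a_X, a_X, a_u, a_u, a_m, a_m, a_n],
    [a_A, a_A, a_m, a_m, a_n],
    [a_x, a_x, a_X, a_X, a_v, a_A, a_A, a_m, a_n]]

theorem check2 : check Rs N2 = true := by decide +kernel

/-- relation 3 -/
def N3 : List (List (List ℕ × List ℕ)) :=
  [[a_u],
    [a_A],
    [a_X, a_A],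
    [a_x, a_X, a_A],
    [a_u, a_x, a_x, a_X, a_x, a_x, a_X],
    [a_u, a_x, a_X, a_x, a_x, a_X]]

theorem check3 : check Rs N3 = true := by decide +kernel

/-- relation 4 -/
def N4 : List (List (List ℕ × List ℕ)) :=
  [[a_x, a_x, a_x, a_x, a_X, a_X, a_u, a_u, a_v, a_x, a_x, a_X],
    [a_v, a_A, a_A],
    [a_x, a_x, a_x, a_x, a_X, a_u, a_u, a_B],
    [a_x, a_x, a_x, a_x, a_X, a_X, a_u, a_u, a_v, a_x, a_X, a_x, a_X],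
    [a_m, a_n],
    [a_x, a_x, a_m, a_n]]

theorem check4 : check Rs N4 = true := by decide +kernel

/-- relation 5 -/
def N5 : List (List (List ℕ × List ℕ)) :=
  [[a_x, a_x, a_x, a_x, a_X, a_X, a_X, a_u, a_u, a_v],
    [a_x, a_x, a_X, a_u, a_u, a_B],
    [a_m, a_n],
    [a_X, a_m, a_n],
    [a_x, a_x, a_X, a_X, a_u, a_v, a_A],
    [a_u, a_A, a_B],
    [a_x, a_X, a_m, a_n]]

theorem check5 : check Rs N5 = true := by decide +kernel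

/-- relation 6 -/
def N6 : List (List (List ℕ × List ℕ)) :=
  [[a_x, a_x, a_X, a_u, a_m, a_m, a_n],
    [a_A, a_m, a_m, a_n],
    [a_x, a_x, a_x, a_x, a_x, a_x, a_X, a_X, a_X, a_X, a_u, a_v, a_m, a_n],
    [a_x, a_x, a_x, a_X, a_X, a_u, a_m, a_m, a_n],
    [a_A, a_B, a_m, a_n],
    [a_x, a_x, a_x, a_X, a_X, a_X, a_v, a_A, a_m, a_n],
    [a_x, a_x, a_x, a_x, a_x, a_X, a_X, a_X, a_X, a_u, a_v, a_m, a_n]]

theorem check6 : check Rs N6 = true := by decide +kernel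

/-- relation 7 -/
def N7 : List (List (List ℕ × List ℕ)) :=
  [[a_x, a_x, a_x, a_x, a_x, a_x, a_X, a_X, a_X, a_X, a_u, a_u, a_v, a_m, a_m, a_n],
    [a_m, a_n, a_m, a_m, a_n],
    [a_x, a_x, a_X, a_m, a_n, a_m, a_m, a_n],
    [a_x, a_x, a_x, a_x, a_X, a_X, a_X, a_v, a_m, a_n, a_m, a_n],
    [a_x, a_x, a_X, a_X, a_v, a_m, a_n, a_m, a_n],
    [a_x, a_x, a_x, a_x, a_X, a_X, a_u, a_u, a_B, a_m, a_m, a_n],
    [a_B, a_m, a_n, a_m, a_n]]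

theorem check7 : check Rs N7 = true := by decide +kernel

/-- relation 8 -/
def N8 : List (List (List ℕ × List ℕ)) :=
  [[a_x, a_x, a_x, a_x, a_x, a_x, a_X, a_X, a_X, a_X, a_u, a_u, a_v],
    [a_m, a_n],
    [a_x, a_x, a_x, a_x, a_x, a_x, a_X, a_X, a_X, a_X, a_u, a_u, a_v, a_x, a_x, a_X],
    [a_x, a_x, a_X, a_m, a_n],
    [a_x, a_x, a_x, a_x, a_X, a_X, a_u, a_u, a_B],
    [a_x, a_x, a_x, a_x, a_x, a_x, a_X, a_X, a_X, a_u, a_u, a_B],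
    [a_x, a_x, a_x, a_x, a_x, a_x, a_X, a_X, a_X, a_X, a_u, a_u, a_v, a_x, a_X, a_x, a_X],
    [a_A, a_A, a_B]]

theorem check8 : check Rs N8 = true := by decide +kernel

/-- relation 9 -/
def N9 : List (List (List ℕ × List ℕ)) :=
  [[a_x, a_x, a_x, a_x, a_X, a_X, a_X, a_u, a_u, a_v, a_x, a_x, a_X],
    [a_u, a_A, a_B],
    [a_m, a_n],
    [a_x, a_x, a_x, a_x, a_X, a_X, a_u, a_u, a_B],
    [a_x, a_x, a_x, a_x, a_X, a_X, a_X, a_u, a_u, a_v, a_x, a_X],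
    [a_X, a_v, a_A, a_A],
    [a_x, a_x, a_x, a_x, a_X, a_X, a_X, a_u, a_v, a_A],
    [a_x, a_x, a_x, a_x, a_X, a_X, a_X, a_u, a_v, a_X, a_A],
    [a_x, a_x, a_x, a_x, a_X, a_X, a_X, a_u, a_u, a_v, a_x, a_X, a_x, a_x, a_X],
    [a_x, a_X, a_u, a_A, a_B],
    [a_x, a_X, a_X, a_v, a_A, a_A]]

theorem check9 : check Rs N9 = true := by decide +kernel

/-- relation 10 -/
def N10 : List (List (List ℕ × List ℕ)) :=
  [[a_x, a_x, a_x, a_x, a_x, a_x, a_x, a_x, a_X, a_X, a_X, a_X, a_X, a_X, a_u, a_u, a_v, a_v],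
    [a_m, a_m, a_n],
    [a_x, a_x, a_X, a_m, a_m, a_n],
    [a_x, a_x, a_x, a_x, a_X, a_X, a_X, a_v, a_m, a_n],
    [a_x, a_x, a_X, a_X, a_v, a_m, a_n],
    [a_B, a_m, a_n],
    [a_x, a_x, a_x, a_x, a_X, a_X, a_u, a_u, a_B, a_B],
    [a_x, a_x, a_x, a_x, a_x, a_x, a_x, a_x, a_X, a_X, a_X, a_X, a_X, a_u, a_u, a_v, a_B],
    [a_x, a_x, a_x, a_x, a_x, a_x, a_X, a_X, a_X, a_u, a_u, a_B, a_B],
    [a_x, a_x, a_x, a_x, a_x, a_x, a_x, a_x, a_X, a_X, a_X, a_X, a_X, a_X, a_u, a_u, a_v, a_v, a_x, a_X, a_x, a_X],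
    [a_x, a_x, a_x, a_x, a_x, a_x, a_x, a_x, a_X, a_X, a_X, a_X, a_X, a_X, a_u, a_u, a_v, a_B]]

theorem check10 : check Rs N10 = true := by decide +kernel

/-- relation 11 -/
def N11 : List (List (List ℕ × List ℕ)) :=
  [[a_u, a_m, a_m, a_n],
    [a_x, a_x, a_X, a_X, a_u, a_v, a_m, a_n],
    [a_x, a_x, a_X, a_u, a_m, a_m, a_n],
    [a_x, a_x, a_x, a_x, a_X, a_X, a_X, a_u, a_v, a_m, a_n],
    [a_X, a_v, a_A, a_m, a_n],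
    [a_A, a_m, a_m, a_n],
    [a_x, a_x, a_X, a_X, a_v, a_A, a_m, a_n],
    [a_x, a_x, a_x, a_X, a_X, a_u, a_m, a_m, a_n],
    [a_x, a_X, a_u, a_m, a_m, a_n],
    [a_x, a_x, a_x, a_X, a_X, a_X, a_u, a_v, a_m, a_n],
    [a_x, a_X, a_X, a_v, a_A, a_m, a_n]]

theorem check11 : check Rs N11 = true := by decide +kernel

/-- relation 12 -/
def N12 : List (List (List ℕ × List ℕ)) :=
  [[a_x, a_x, a_X, a_X, a_u, a_v],
    [a_u, a_B],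
    [a_x, a_x, a_X, a_X, a_u, a_v, a_x, a_x, a_X],
    [a_x, a_x, a_X, a_u, a_B],
    [a_X, a_v, a_A],
    [a_A, a_B],
    [a_x, a_x, a_X, a_X, a_u, a_v, a_x, a_X, a_x, a_X],
    [a_x, a_x, a_X, a_X, a_v, a_X, a_A],
    [a_x, a_X, a_u, a_B],
    [a_x, a_X, a_X, a_v, a_A],
    [a_x, a_x, a_X, a_X, a_u, a_x, a_B],
    [a_x, a_x, a_X, a_X, a_u, a_v, a_x, a_X, a_x, a_X, a_x, a_X]]

theorem check12 : check Rs N12 = true := by decide +kernel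

/-- relation 13 -/
def N13 : List (List (List ℕ × List ℕ)) :=
  [[a_x, a_x, a_x, a_x, a_x, a_x, a_x, a_x, a_X, a_X, a_X, a_X, a_X, a_X, a_u, a_u, a_v, a_v],
    [a_m, a_m, a_n],
    [a_x, a_x, a_x, a_x, a_X, a_X, a_X, a_v, a_m, a_n],
    [a_x, a_x, a_x, a_x, a_x, a_x, a_x, a_x, a_X, a_X, a_X, a_X, a_X, a_X, a_u, a_v, a_v, a_A],
    [a_x, a_x, a_x, a_x, a_x, a_x, a_X, a_X, a_X, a_X, a_u, a_u, a_v, a_B],
    [a_x, a_x, a_x, a_x, a_x, a_x, a_X, a_X, a_X, a_X, a_X, a_u, a_v, a_v, a_A],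
    [a_B, a_m, a_n],
    [a_x, a_x, a_x, a_x, a_X, a_X, a_X, a_u, a_v, a_A, a_B],
    [a_x, a_x, a_x, a_x, a_X, a_X, a_X, a_X, a_v, a_v, a_A, a_A],
    [a_x, a_x, a_x, a_x, a_X, a_X, a_X, a_X, a_v, a_m, a_n],
    [a_x, a_x, a_x, a_x, a_x, a_x, a_x, a_x, a_X, a_X, a_X, a_X, a_X, a_X, a_u, a_v, a_v, a_X, a_A],
    [a_x, a_x, a_X, a_u, a_A, a_B, a_B],
    [a_x, a_X, a_m, a_m, a_n],
    [a_x, a_x, a_x, a_X, a_X, a_X, a_v, a_m, a_n],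
    [a_x, a_x, a_x, a_x, a_x, a_x, a_x, a_X, a_X, a_X, a_X, a_X, a_u, a_u, a_v, a_B],
    [a_x, a_x, a_x, a_x, a_x, a_x, a_x, a_X, a_X, a_X, a_X, a_X, a_X, a_u, a_v, a_v, a_A],
    [a_x, a_X, a_B, a_m, a_n],
    [a_x, a_x, a_x, a_x, a_x, a_X, a_X, a_X, a_X, a_X, a_v, a_v, a_A, a_A],
    [a_x, a_x, a_x, a_x, a_x, a_x, a_x, a_x, a_X, a_X, a_X, a_X, a_X, a_X, a_u, a_u, a_v, a_v, a_x, a_X, a_x, a_x, a_X]]

theorem check13 : check Rs N13 = true := by decide +kernel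

/-- relation 14 -/
def N14 : List (List (List ℕ × List ℕ)) :=
  [[a_x, a_x, a_u, a_u, a_B],
    [a_v, a_A, a_A],
    [a_m, a_n],
    [a_x, a_x, a_X, a_X, a_v, a_A, a_A],
    [a_x, a_x, a_x, a_x, a_X, a_X, a_u, a_u, a_v, a_x, a_x, a_X, a_x, a_x, a_X]]

theorem check14 : check Rs N14 = true := by decide +kernel

theorem rel0 [IsDomain K] [CharP K 2] {x X u v d e a c : K} (hx : x ≠ 0) (hX : X ≠ 0) (hu : u ≠ 0) (hv : v ≠ 0)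
    (eu : u = 1 + X + x * X) (ev : v = 1 + x ^ 2 + x ^ 2 * X)
    (hA : 1 + x ^ 3 * X ^ 2 + x ^ 4 * X ^ 2 = d * (x ^ 2 * X * u))
    (hB : 1 + x ^ 4 * X ^ 3 + x ^ 4 * X ^ 4 = e * (x ^ 2 * X ^ 2 * v))
    (hm : x ^ 4 * X ^ 2 + x ^ 2 * X ^ 2 + x ^ 2 * X + 1 = a * (x ^ 2 * X ^ 2 * v))
    (hn : x ^ 4 * X ^ 4 + x ^ 4 * X ^ 2 + x ^ 2 * X ^ 2 + 1 = c * (x ^ 4 * X ^ 2 * u ^ 2)) :
    (x * X) ^ 2 * (a * c) + (x ^ 2 * X) * e * (a * c) + e * (a * c) + (a * c) + (a ^ 2 * c) = 0 := by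
  have h := evS_eq_zero Rs [x, X] N0 check0
  simp only [N0, evS, evProd, List.map_cons, List.map_nil] at h
  have tx : evP Rs [x, X] a_x.2 = x := ev_a_x x X
  have tX : evP Rs [x, X] a_X.2 = X := ev_a_X x X
  have tu : evP Rs [x, X] a_u.2 = u := by rw [ev_a_u, eu]; ring
  have tv : evP Rs [x, X] a_v.2 = v := by rw [ev_a_v, ev]; ring
  have tA : evP Rs [x, X] a_A.2 = d * (x ^ 2 * X * u) := by rw [ev_a_A, ← hA]; ring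
  have tB : evP Rs [x, X] a_B.2 = e * (x ^ 2 * X ^ 2 * v) := by rw [ev_a_B, ← hB]; ring
  have tm : evP Rs [x, X] a_m.2 = a * (x ^ 2 * X ^ 2 * v) := by rw [ev_a_m, ← hm]
  have tn : evP Rs [x, X] a_n.2 = c * (x ^ 4 * X ^ 2 * u ^ 2) := by rw [ev_a_n, ← hn]
  simp only [tx, tX, tu, tv, tA, tB, tm, tn] at h
  refine (mul_eq_zero.1 (?_ : (x ^ 8 * X ^ 6 * u ^ 2 * v ^ 2) * _ = 0)).resolve_left
    (mul_ne_zero (mul_ne_zero (mul_ne_zero (pow_ne_zero _ hx) (pow_ne_zero _ hX)) (pow_ne_zero _ hu)) (pow_ne_zero _ hv))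
  linear_combination h

theorem rel1 [IsDomain K] [CharP K 2] {x X u v d e a c : K} (hx : x ≠ 0) (hX : X ≠ 0) (hu : u ≠ 0) (hv : v ≠ 0)
    (eu : u = 1 + X + x * X) (ev : v = 1 + x ^ 2 + x ^ 2 * X)
    (hA : 1 + x ^ 3 * X ^ 2 + x ^ 4 * X ^ 2 = d * (x ^ 2 * X * u))
    (hB : 1 + x ^ 4 * X ^ 3 + x ^ 4 * X ^ 4 = e * (x ^ 2 * X ^ 2 * v))
    (hm : x ^ 4 * X ^ 2 + x ^ 2 * X ^ 2 + x ^ 2 * X + 1 = a * (x ^ 2 * X ^ 2 * v))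
    (hn : x ^ 4 * X ^ 4 + x ^ 4 * X ^ 2 + x ^ 2 * X ^ 2 + 1 = c * (x ^ 4 * X ^ 2 * u ^ 2)) :
    (x * X) ^ 2 * (a ^ 2 * c) + (x ^ 2 * X) * (a * c) + (x ^ 2 * X) * (a ^ 2 * c) + e * (a * c) + (a ^ 2 * c) = 0 := by
  have h := evS_eq_zero Rs [x, X] N1 check1
  simp only [N1, evS, evProd, List.map_cons, List.map_nil] at h
  have tx : evP Rs [x, X] a_x.2 = x := ev_a_x x X
  have tX : evP Rs [x, X] a_X.2 = X := ev_a_X x X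
  have tu : evP Rs [x, X] a_u.2 = u := by rw [ev_a_u, eu]; ring
  have tv : evP Rs [x, X] a_v.2 = v := by rw [ev_a_v, ev]; ring
  have tA : evP Rs [x, X] a_A.2 = d * (x ^ 2 * X * u) := by rw [ev_a_A, ← hA]; ring
  have tB : evP Rs [x, X] a_B.2 = e * (x ^ 2 * X ^ 2 * v) := by rw [ev_a_B, ← hB]; ring
  have tm : evP Rs [x, X] a_m.2 = a * (x ^ 2 * X ^ 2 * v) := by rw [ev_a_m, ← hm]
  have tn : evP Rs [x, X] a_n.2 = c * (x ^ 4 * X ^ 2 * u ^ 2) := by rw [ev_a_n, ← hn]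
  simp only [tx, tX, tu, tv, tA, tB, tm, tn] at h
  refine (mul_eq_zero.1 (?_ : (x ^ 8 * X ^ 6 * u ^ 2 * v ^ 2) * _ = 0)).resolve_left
    (mul_ne_zero (mul_ne_zero (mul_ne_zero (pow_ne_zero _ hx) (pow_ne_zero _ hX)) (pow_ne_zero _ hu)) (pow_ne_zero _ hv))
  linear_combination h

theorem rel2 [IsDomain K] [CharP K 2] {x X u v d e a c : K} (hx : x ≠ 0) (hX : X ≠ 0) (hu : u ≠ 0) (hv : v ≠ 0)
    (eu : u = 1 + X + x * X) (ev : v = 1 + x ^ 2 + x ^ 2 * X)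
    (hA : 1 + x ^ 3 * X ^ 2 + x ^ 4 * X ^ 2 = d * (x ^ 2 * X * u))
    (hB : 1 + x ^ 4 * X ^ 3 + x ^ 4 * X ^ 4 = e * (x ^ 2 * X ^ 2 * v))
    (hm : x ^ 4 * X ^ 2 + x ^ 2 * X ^ 2 + x ^ 2 * X + 1 = a * (x ^ 2 * X ^ 2 * v))
    (hn : x ^ 4 * X ^ 4 + x ^ 4 * X ^ 2 + x ^ 2 * X ^ 2 + 1 = c * (x ^ 4 * X ^ 2 * u ^ 2)) :
    d ^ 2 * (a * c) + d ^ 2 * (a ^ 2 * c) + (x ^ 2 * X) * (a ^ 2 * c) + (a * c) ^ 2 + (a * c) = 0 := by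
  have h := evS_eq_zero Rs [x, X] N2 check2
  simp only [N2, evS, evProd, List.map_cons, List.map_nil] at h
  have tx : evP Rs [x, X] a_x.2 = x := ev_a_x x X
  have tX : evP Rs [x, X] a_X.2 = X := ev_a_X x X
  have tu : evP Rs [x, X] a_u.2 = u := by rw [ev_a_u, eu]; ring
  have tv : evP Rs [x, X] a_v.2 = v := by rw [ev_a_v, ev]; ring
  have tA : evP Rs [x, X] a_A.2 = d * (x ^ 2 * X * u) := by rw [ev_a_A, ← hA]; ring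
  have tB : evP Rs [x, X] a_B.2 = e * (x ^ 2 * X ^ 2 * v) := by rw [ev_a_B, ← hB]; ring
  have tm : evP Rs [x, X] a_m.2 = a * (x ^ 2 * X ^ 2 * v) := by rw [ev_a_m, ← hm]
  have tn : evP Rs [x, X] a_n.2 = c * (x ^ 4 * X ^ 2 * u ^ 2) := by rw [ev_a_n, ← hn]
  simp only [tx, tX, tu, tv, tA, tB, tm, tn] at h
  refine (mul_eq_zero.1 (?_ : (x ^ 12 * X ^ 8 * u ^ 4 * v ^ 2) * _ = 0)).resolve_left
    (mul_ne_zero (mul_ne_zero (mul_ne_zero (pow_ne_zero _ hx) (pow_ne_zero _ hX)) (pow_ne_zero _ hu)) (pow_ne_zero _ hv))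
  linear_combination h

theorem rel3 [IsDomain K] [CharP K 2] {x X u v d e a c : K} (hx : x ≠ 0) (hX : X ≠ 0) (hu : u ≠ 0) (hv : v ≠ 0)
    (eu : u = 1 + X + x * X) (ev : v = 1 + x ^ 2 + x ^ 2 * X)
    (hA : 1 + x ^ 3 * X ^ 2 + x ^ 4 * X ^ 2 = d * (x ^ 2 * X * u))
    (hB : 1 + x ^ 4 * X ^ 3 + x ^ 4 * X ^ 4 = e * (x ^ 2 * X ^ 2 * v))
    (hm : x ^ 4 * X ^ 2 + x ^ 2 * X ^ 2 + x ^ 2 * X + 1 = a * (x ^ 2 * X ^ 2 * v))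
    (hn : x ^ 4 * X ^ 4 + x ^ 4 * X ^ 2 + x ^ 2 * X ^ 2 + 1 = c * (x ^ 4 * X ^ 2 * u ^ 2)) :
    (x * X) ^ 2 * d + (x * X) * (x ^ 2 * X) * d + (x * X) * (x ^ 2 * X) + (x ^ 2 * X) ^ 2 + (x ^ 2 * X) * d + 1 = 0 := by
  have h := evS_eq_zero Rs [x, X] N3 check3
  simp only [N3, evS, evProd, List.map_cons, List.map_nil] at h
  have tx : evP Rs [x, X] a_x.2 = x := ev_a_x x X
  have tX : evP Rs [x, X] a_X.2 = X := ev_a_X x X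
  have tu : evP Rs [x, X] a_u.2 = u := by rw [ev_a_u, eu]; ring
  have tv : evP Rs [x, X] a_v.2 = v := by rw [ev_a_v, ev]; ring
  have tA : evP Rs [x, X] a_A.2 = d * (x ^ 2 * X * u) := by rw [ev_a_A, ← hA]; ring
  have tB : evP Rs [x, X] a_B.2 = e * (x ^ 2 * X ^ 2 * v) := by rw [ev_a_B, ← hB]; ring
  have tm : evP Rs [x, X] a_m.2 = a * (x ^ 2 * X ^ 2 * v) := by rw [ev_a_m, ← hm]
  have tn : evP Rs [x, X] a_n.2 = c * (x ^ 4 * X ^ 2 * u ^ 2) := by rw [ev_a_n, ← hn]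
  simp only [tx, tX, tu, tv, tA, tB, tm, tn] at h
  refine (mul_eq_zero.1 (?_ : (x ^ 0 * X ^ 0 * u ^ 1 * v ^ 0) * _ = 0)).resolve_left
    (mul_ne_zero (mul_ne_zero (mul_ne_zero (pow_ne_zero _ hx) (pow_ne_zero _ hX)) (pow_ne_zero _ hu)) (pow_ne_zero _ hv))
  linear_combination h

theorem rel4 [IsDomain K] [CharP K 2] {x X u v d e a c : K} (hx : x ≠ 0) (hX : X ≠ 0) (hu : u ≠ 0) (hv : v ≠ 0)
    (eu : u = 1 + X + x * X) (ev : v = 1 + x ^ 2 + x ^ 2 * X)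
    (hA : 1 + x ^ 3 * X ^ 2 + x ^ 4 * X ^ 2 = d * (x ^ 2 * X * u))
    (hB : 1 + x ^ 4 * X ^ 3 + x ^ 4 * X ^ 4 = e * (x ^ 2 * X ^ 2 * v))
    (hm : x ^ 4 * X ^ 2 + x ^ 2 * X ^ 2 + x ^ 2 * X + 1 = a * (x ^ 2 * X ^ 2 * v))
    (hn : x ^ 4 * X ^ 4 + x ^ 4 * X ^ 2 + x ^ 2 * X ^ 2 + 1 = c * (x ^ 4 * X ^ 2 * u ^ 2)) :
    (x * X) ^ 2 * (a * c) + (x ^ 2 * X) ^ 2 * (a * c) + (x * X) ^ 2 + (x ^ 2 * X) * e + d ^ 2 + (x ^ 2 * X) = 0 := by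
  have h := evS_eq_zero Rs [x, X] N4 check4
  simp only [N4, evS, evProd, List.map_cons, List.map_nil] at h
  have tx : evP Rs [x, X] a_x.2 = x := ev_a_x x X
  have tX : evP Rs [x, X] a_X.2 = X := ev_a_X x X
  have tu : evP Rs [x, X] a_u.2 = u := by rw [ev_a_u, eu]; ring
  have tv : evP Rs [x, X] a_v.2 = v := by rw [ev_a_v, ev]; ring
  have tA : evP Rs [x, X] a_A.2 = d * (x ^ 2 * X * u) := by rw [ev_a_A, ← hA]; ring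
  have tB : evP Rs [x, X] a_B.2 = e * (x ^ 2 * X ^ 2 * v) := by rw [ev_a_B, ← hB]; ring
  have tm : evP Rs [x, X] a_m.2 = a * (x ^ 2 * X ^ 2 * v) := by rw [ev_a_m, ← hm]
  have tn : evP Rs [x, X] a_n.2 = c * (x ^ 4 * X ^ 2 * u ^ 2) := by rw [ev_a_n, ← hn]
  simp only [tx, tX, tu, tv, tA, tB, tm, tn] at h
  refine (mul_eq_zero.1 (?_ : (x ^ 4 * X ^ 2 * u ^ 2 * v ^ 1) * _ = 0)).resolve_left
    (mul_ne_zero (mul_ne_zero (mul_ne_zero (pow_ne_zero _ hx) (pow_ne_zero _ hX)) (pow_ne_zero _ hu)) (pow_ne_zero _ hv))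
  linear_combination h

theorem rel5 [IsDomain K] [CharP K 2] {x X u v d e a c : K} (hx : x ≠ 0) (hX : X ≠ 0) (hu : u ≠ 0) (hv : v ≠ 0)
    (eu : u = 1 + X + x * X) (ev : v = 1 + x ^ 2 + x ^ 2 * X)
    (hA : 1 + x ^ 3 * X ^ 2 + x ^ 4 * X ^ 2 = d * (x ^ 2 * X * u))
    (hB : 1 + x ^ 4 * X ^ 3 + x ^ 4 * X ^ 4 = e * (x ^ 2 * X ^ 2 * v))
    (hm : x ^ 4 * X ^ 2 + x ^ 2 * X ^ 2 + x ^ 2 * X + 1 = a * (x ^ 2 * X ^ 2 * v))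
    (hn : x ^ 4 * X ^ 4 + x ^ 4 * X ^ 2 + x ^ 2 * X ^ 2 + 1 = c * (x ^ 4 * X ^ 2 * u ^ 2)) :
    (x * X) ^ 2 * (a * c) + (x * X) * (x ^ 2 * X) * (a * c) + (x ^ 2 * X) * (a * c) + d * e + d + e + 1 = 0 := by
  have h := evS_eq_zero Rs [x, X] N5 check5
  simp only [N5, evS, evProd, List.map_cons, List.map_nil] at h
  have tx : evP Rs [x, X] a_x.2 = x := ev_a_x x X
  have tX : evP Rs [x, X] a_X.2 = X := ev_a_X x X
  have tu : evP Rs [x, X] a_u.2 = u := by rw [ev_a_u, eu]; ring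
  have tv : evP Rs [x, X] a_v.2 = v := by rw [ev_a_v, ev]; ring
  have tA : evP Rs [x, X] a_A.2 = d * (x ^ 2 * X * u) := by rw [ev_a_A, ← hA]; ring
  have tB : evP Rs [x, X] a_B.2 = e * (x ^ 2 * X ^ 2 * v) := by rw [ev_a_B, ← hB]; ring
  have tm : evP Rs [x, X] a_m.2 = a * (x ^ 2 * X ^ 2 * v) := by rw [ev_a_m, ← hm]
  have tn : evP Rs [x, X] a_n.2 = c * (x ^ 4 * X ^ 2 * u ^ 2) := by rw [ev_a_n, ← hn]
  simp only [tx, tX, tu, tv, tA, tB, tm, tn] at h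
  refine (mul_eq_zero.1 (?_ : (x ^ 4 * X ^ 3 * u ^ 2 * v ^ 1) * _ = 0)).resolve_left
    (mul_ne_zero (mul_ne_zero (mul_ne_zero (pow_ne_zero _ hx) (pow_ne_zero _ hX)) (pow_ne_zero _ hu)) (pow_ne_zero _ hv))
  linear_combination h

theorem rel6 [IsDomain K] [CharP K 2] {x X u v d e a c : K} (hx : x ≠ 0) (hX : X ≠ 0) (hu : u ≠ 0) (hv : v ≠ 0)
    (eu : u = 1 + X + x * X) (ev : v = 1 + x ^ 2 + x ^ 2 * X)
    (hA : 1 + x ^ 3 * X ^ 2 + x ^ 4 * X ^ 2 = d * (x ^ 2 * X * u))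
    (hB : 1 + x ^ 4 * X ^ 3 + x ^ 4 * X ^ 4 = e * (x ^ 2 * X ^ 2 * v))
    (hm : x ^ 4 * X ^ 2 + x ^ 2 * X ^ 2 + x ^ 2 * X + 1 = a * (x ^ 2 * X ^ 2 * v))
    (hn : x ^ 4 * X ^ 4 + x ^ 4 * X ^ 2 + x ^ 2 * X ^ 2 + 1 = c * (x ^ 4 * X ^ 2 * u ^ 2)) :
    (x * X) * d * (a * c) + d * e * (a * c) + (x * X) * (a * c) + (x * X) * (a ^ 2 * c) + (x ^ 2 * X) * (a * c) + d * (a ^ 2 * c) + (a ^ 2 * c) = 0 := by
  have h := evS_eq_zero Rs [x, X] N6 check6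
  simp only [N6, evS, evProd, List.map_cons, List.map_nil] at h
  have tx : evP Rs [x, X] a_x.2 = x := ev_a_x x X
  have tX : evP Rs [x, X] a_X.2 = X := ev_a_X x X
  have tu : evP Rs [x, X] a_u.2 = u := by rw [ev_a_u, eu]; ring
  have tv : evP Rs [x, X] a_v.2 = v := by rw [ev_a_v, ev]; ring
  have tA : evP Rs [x, X] a_A.2 = d * (x ^ 2 * X * u) := by rw [ev_a_A, ← hA]; ring
  have tB : evP Rs [x, X] a_B.2 = e * (x ^ 2 * X ^ 2 * v) := by rw [ev_a_B, ← hB]; ring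
  have tm : evP Rs [x, X] a_m.2 = a * (x ^ 2 * X ^ 2 * v) := by rw [ev_a_m, ← hm]
  have tn : evP Rs [x, X] a_n.2 = c * (x ^ 4 * X ^ 2 * u ^ 2) := by rw [ev_a_n, ← hn]
  simp only [tx, tX, tu, tv, tA, tB, tm, tn] at h
  refine (mul_eq_zero.1 (?_ : (x ^ 10 * X ^ 7 * u ^ 3 * v ^ 2) * _ = 0)).resolve_left
    (mul_ne_zero (mul_ne_zero (mul_ne_zero (pow_ne_zero _ hx) (pow_ne_zero _ hX)) (pow_ne_zero _ hu)) (pow_ne_zero _ hv))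
  linear_combination h

theorem rel7 [IsDomain K] [CharP K 2] {x X u v d e a c : K} (hx : x ≠ 0) (hX : X ≠ 0) (hu : u ≠ 0) (hv : v ≠ 0)
    (eu : u = 1 + X + x * X) (ev : v = 1 + x ^ 2 + x ^ 2 * X)
    (hA : 1 + x ^ 3 * X ^ 2 + x ^ 4 * X ^ 2 = d * (x ^ 2 * X * u))
    (hB : 1 + x ^ 4 * X ^ 3 + x ^ 4 * X ^ 4 = e * (x ^ 2 * X ^ 2 * v))
    (hm : x ^ 4 * X ^ 2 + x ^ 2 * X ^ 2 + x ^ 2 * X + 1 = a * (x ^ 2 * X ^ 2 * v))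
    (hn : x ^ 4 * X ^ 4 + x ^ 4 * X ^ 2 + x ^ 2 * X ^ 2 + 1 = c * (x ^ 4 * X ^ 2 * u ^ 2)) :
    (x ^ 2 * X) * (a * c) ^ 2 + (x ^ 2 * X) * (a * c) * (a ^ 2 * c) + e * (a * c) ^ 2 + e * (a ^ 2 * c) + (a * c) ^ 2 + (a * c) * (a ^ 2 * c) + (a ^ 2 * c) = 0 := by
  have h := evS_eq_zero Rs [x, X] N7 check7
  simp only [N7, evS, evProd, List.map_cons, List.map_nil] at h
  have tx : evP Rs [x, X] a_x.2 = x := ev_a_x x X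
  have tX : evP Rs [x, X] a_X.2 = X := ev_a_X x X
  have tu : evP Rs [x, X] a_u.2 = u := by rw [ev_a_u, eu]; ring
  have tv : evP Rs [x, X] a_v.2 = v := by rw [ev_a_v, ev]; ring
  have tA : evP Rs [x, X] a_A.2 = d * (x ^ 2 * X * u) := by rw [ev_a_A, ← hA]; ring
  have tB : evP Rs [x, X] a_B.2 = e * (x ^ 2 * X ^ 2 * v) := by rw [ev_a_B, ← hB]; ring
  have tm : evP Rs [x, X] a_m.2 = a * (x ^ 2 * X ^ 2 * v) := by rw [ev_a_m, ← hm]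
  have tn : evP Rs [x, X] a_n.2 = c * (x ^ 4 * X ^ 2 * u ^ 2) := by rw [ev_a_n, ← hn]
  simp only [tx, tX, tu, tv, tA, tB, tm, tn] at h
  refine (mul_eq_zero.1 (?_ : (x ^ 14 * X ^ 10 * u ^ 4 * v ^ 3) * _ = 0)).resolve_left
    (mul_ne_zero (mul_ne_zero (mul_ne_zero (pow_ne_zero _ hx) (pow_ne_zero _ hX)) (pow_ne_zero _ hu)) (pow_ne_zero _ hv))
  linear_combination h

theorem rel8 [IsDomain K] [CharP K 2] {x X u v d e a c : K} (hx : x ≠ 0) (hX : X ≠ 0) (hu : u ≠ 0) (hv : v ≠ 0)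
    (eu : u = 1 + X + x * X) (ev : v = 1 + x ^ 2 + x ^ 2 * X)
    (hA : 1 + x ^ 3 * X ^ 2 + x ^ 4 * X ^ 2 = d * (x ^ 2 * X * u))
    (hB : 1 + x ^ 4 * X ^ 3 + x ^ 4 * X ^ 4 = e * (x ^ 2 * X ^ 2 * v))
    (hm : x ^ 4 * X ^ 2 + x ^ 2 * X ^ 2 + x ^ 2 * X + 1 = a * (x ^ 2 * X ^ 2 * v))
    (hn : x ^ 4 * X ^ 4 + x ^ 4 * X ^ 2 + x ^ 2 * X ^ 2 + 1 = c * (x ^ 4 * X ^ 2 * u ^ 2)) :
    d ^ 2 * e + (x * X) ^ 2 + (x ^ 2 * X) * e + (x ^ 2 * X) * (a * c) + (x ^ 2 * X) + e + (a * c) + 1 = 0 := by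
  have h := evS_eq_zero Rs [x, X] N8 check8
  simp only [N8, evS, evProd, List.map_cons, List.map_nil] at h
  have tx : evP Rs [x, X] a_x.2 = x := ev_a_x x X
  have tX : evP Rs [x, X] a_X.2 = X := ev_a_X x X
  have tu : evP Rs [x, X] a_u.2 = u := by rw [ev_a_u, eu]; ring
  have tv : evP Rs [x, X] a_v.2 = v := by rw [ev_a_v, ev]; ring
  have tA : evP Rs [x, X] a_A.2 = d * (x ^ 2 * X * u) := by rw [ev_a_A, ← hA]; ring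
  have tB : evP Rs [x, X] a_B.2 = e * (x ^ 2 * X ^ 2 * v) := by rw [ev_a_B, ← hB]; ring
  have tm : evP Rs [x, X] a_m.2 = a * (x ^ 2 * X ^ 2 * v) := by rw [ev_a_m, ← hm]
  have tn : evP Rs [x, X] a_n.2 = c * (x ^ 4 * X ^ 2 * u ^ 2) := by rw [ev_a_n, ← hn]
  simp only [tx, tX, tu, tv, tA, tB, tm, tn] at h
  refine (mul_eq_zero.1 (?_ : (x ^ 6 * X ^ 4 * u ^ 2 * v ^ 1) * _ = 0)).resolve_left
    (mul_ne_zero (mul_ne_zero (mul_ne_zero (pow_ne_zero _ hx) (pow_ne_zero _ hX)) (pow_ne_zero _ hu)) (pow_ne_zero _ hv))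
  linear_combination h

theorem rel9 [IsDomain K] [CharP K 2] {x X u v d e a c : K} (hx : x ≠ 0) (hX : X ≠ 0) (hu : u ≠ 0) (hv : v ≠ 0)
    (eu : u = 1 + X + x * X) (ev : v = 1 + x ^ 2 + x ^ 2 * X)
    (hA : 1 + x ^ 3 * X ^ 2 + x ^ 4 * X ^ 2 = d * (x ^ 2 * X * u))
    (hB : 1 + x ^ 4 * X ^ 3 + x ^ 4 * X ^ 4 = e * (x ^ 2 * X ^ 2 * v))
    (hm : x ^ 4 * X ^ 2 + x ^ 2 * X ^ 2 + x ^ 2 * X + 1 = a * (x ^ 2 * X ^ 2 * v))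
    (hn : x ^ 4 * X ^ 4 + x ^ 4 * X ^ 2 + x ^ 2 * X ^ 2 + 1 = c * (x ^ 4 * X ^ 2 * u ^ 2)) :
    (x * X) ^ 2 * d + (x * X) * d ^ 2 + (x * X) * d * e + (x * X) * (x ^ 2 * X) + (x ^ 2 * X) * d + (x ^ 2 * X) * e + (x ^ 2 * X) * (a * c) + d ^ 2 + d * e + (x * X) + (x ^ 2 * X) = 0 := by
  have h := evS_eq_zero Rs [x, X] N9 check9
  simp only [N9, evS, evProd, List.map_cons, List.map_nil] at h
  have tx : evP Rs [x, X] a_x.2 = x := ev_a_x x X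
  have tX : evP Rs [x, X] a_X.2 = X := ev_a_X x X
  have tu : evP Rs [x, X] a_u.2 = u := by rw [ev_a_u, eu]; ring
  have tv : evP Rs [x, X] a_v.2 = v := by rw [ev_a_v, ev]; ring
  have tA : evP Rs [x, X] a_A.2 = d * (x ^ 2 * X * u) := by rw [ev_a_A, ← hA]; ring
  have tB : evP Rs [x, X] a_B.2 = e * (x ^ 2 * X ^ 2 * v) := by rw [ev_a_B, ← hB]; ring
  have tm : evP Rs [x, X] a_m.2 = a * (x ^ 2 * X ^ 2 * v) := by rw [ev_a_m, ← hm]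
  have tn : evP Rs [x, X] a_n.2 = c * (x ^ 4 * X ^ 2 * u ^ 2) := by rw [ev_a_n, ← hn]
  simp only [tx, tX, tu, tv, tA, tB, tm, tn] at h
  refine (mul_eq_zero.1 (?_ : (x ^ 4 * X ^ 3 * u ^ 2 * v ^ 1) * _ = 0)).resolve_left
    (mul_ne_zero (mul_ne_zero (mul_ne_zero (pow_ne_zero _ hx) (pow_ne_zero _ hX)) (pow_ne_zero _ hu)) (pow_ne_zero _ hv))
  linear_combination h

theorem rel10 [IsDomain K] [CharP K 2] {x X u v d e a c : K} (hx : x ≠ 0) (hX : X ≠ 0) (hu : u ≠ 0) (hv : v ≠ 0)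
    (eu : u = 1 + X + x * X) (ev : v = 1 + x ^ 2 + x ^ 2 * X)
    (hA : 1 + x ^ 3 * X ^ 2 + x ^ 4 * X ^ 2 = d * (x ^ 2 * X * u))
    (hB : 1 + x ^ 4 * X ^ 3 + x ^ 4 * X ^ 4 = e * (x ^ 2 * X ^ 2 * v))
    (hm : x ^ 4 * X ^ 2 + x ^ 2 * X ^ 2 + x ^ 2 * X + 1 = a * (x ^ 2 * X ^ 2 * v))
    (hn : x ^ 4 * X ^ 4 + x ^ 4 * X ^ 2 + x ^ 2 * X ^ 2 + 1 = c * (x ^ 4 * X ^ 2 * u ^ 2)) :
    (x * X) ^ 2 * e + (x ^ 2 * X) * e ^ 2 + (x * X) ^ 2 + (x ^ 2 * X) * e + (x ^ 2 * X) * (a * c) + (x ^ 2 * X) * (a ^ 2 * c) + e ^ 2 + e * (a * c) + (a * c) + (a ^ 2 * c) + 1 = 0 := by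
  have h := evS_eq_zero Rs [x, X] N10 check10
  simp only [N10, evS, evProd, List.map_cons, List.map_nil] at h
  have tx : evP Rs [x, X] a_x.2 = x := ev_a_x x X
  have tX : evP Rs [x, X] a_X.2 = X := ev_a_X x X
  have tu : evP Rs [x, X] a_u.2 = u := by rw [ev_a_u, eu]; ring
  have tv : evP Rs [x, X] a_v.2 = v := by rw [ev_a_v, ev]; ring
  have tA : evP Rs [x, X] a_A.2 = d * (x ^ 2 * X * u) := by rw [ev_a_A, ← hA]; ring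
  have tB : evP Rs [x, X] a_B.2 = e * (x ^ 2 * X ^ 2 * v) := by rw [ev_a_B, ← hB]; ring
  have tm : evP Rs [x, X] a_m.2 = a * (x ^ 2 * X ^ 2 * v) := by rw [ev_a_m, ← hm]
  have tn : evP Rs [x, X] a_n.2 = c * (x ^ 4 * X ^ 2 * u ^ 2) := by rw [ev_a_n, ← hn]
  simp only [tx, tX, tu, tv, tA, tB, tm, tn] at h
  refine (mul_eq_zero.1 (?_ : (x ^ 8 * X ^ 6 * u ^ 2 * v ^ 2) * _ = 0)).resolve_left
    (mul_ne_zero (mul_ne_zero (mul_ne_zero (pow_ne_zero _ hx) (pow_ne_zero _ hX)) (pow_ne_zero _ hu)) (pow_ne_zero _ hv))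
  linear_combination h

theorem rel11 [IsDomain K] [CharP K 2] {x X u v d e a c : K} (hx : x ≠ 0) (hX : X ≠ 0) (hu : u ≠ 0) (hv : v ≠ 0)
    (eu : u = 1 + X + x * X) (ev : v = 1 + x ^ 2 + x ^ 2 * X)
    (hA : 1 + x ^ 3 * X ^ 2 + x ^ 4 * X ^ 2 = d * (x ^ 2 * X * u))
    (hB : 1 + x ^ 4 * X ^ 3 + x ^ 4 * X ^ 4 = e * (x ^ 2 * X ^ 2 * v))
    (hm : x ^ 4 * X ^ 2 + x ^ 2 * X ^ 2 + x ^ 2 * X + 1 = a * (x ^ 2 * X ^ 2 * v))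
    (hn : x ^ 4 * X ^ 4 + x ^ 4 * X ^ 2 + x ^ 2 * X ^ 2 + 1 = c * (x ^ 4 * X ^ 2 * u ^ 2)) :
    (x * X) * (x ^ 2 * X) * (a ^ 2 * c) + (x * X) * d * (a * c) + (x ^ 2 * X) * d * (a * c) + (x ^ 2 * X) * d * (a ^ 2 * c) + (x * X) * (a * c) + (x * X) * (a ^ 2 * c) + (x ^ 2 * X) * (a * c) + (x ^ 2 * X) * (a ^ 2 * c) + d * (a * c) + (a * c) + (a ^ 2 * c) = 0 := by
  have h := evS_eq_zero Rs [x, X] N11 check11
  simp only [N11, evS, evProd, List.map_cons, List.map_nil] at h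
  have tx : evP Rs [x, X] a_x.2 = x := ev_a_x x X
  have tX : evP Rs [x, X] a_X.2 = X := ev_a_X x X
  have tu : evP Rs [x, X] a_u.2 = u := by rw [ev_a_u, eu]; ring
  have tv : evP Rs [x, X] a_v.2 = v := by rw [ev_a_v, ev]; ring
  have tA : evP Rs [x, X] a_A.2 = d * (x ^ 2 * X * u) := by rw [ev_a_A, ← hA]; ring
  have tB : evP Rs [x, X] a_B.2 = e * (x ^ 2 * X ^ 2 * v) := by rw [ev_a_B, ← hB]; ring
  have tm : evP Rs [x, X] a_m.2 = a * (x ^ 2 * X ^ 2 * v) := by rw [ev_a_m, ← hm]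
  have tn : evP Rs [x, X] a_n.2 = c * (x ^ 4 * X ^ 2 * u ^ 2) := by rw [ev_a_n, ← hn]
  simp only [tx, tX, tu, tv, tA, tB, tm, tn] at h
  refine (mul_eq_zero.1 (?_ : (x ^ 8 * X ^ 6 * u ^ 3 * v ^ 2) * _ = 0)).resolve_left
    (mul_ne_zero (mul_ne_zero (mul_ne_zero (pow_ne_zero _ hx) (pow_ne_zero _ hX)) (pow_ne_zero _ hu)) (pow_ne_zero _ hv))
  linear_combination h

theorem rel12 [IsDomain K] [CharP K 2] {x X u v d e a c : K} (hx : x ≠ 0) (hX : X ≠ 0) (hu : u ≠ 0) (hv : v ≠ 0)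
    (eu : u = 1 + X + x * X) (ev : v = 1 + x ^ 2 + x ^ 2 * X)
    (hA : 1 + x ^ 3 * X ^ 2 + x ^ 4 * X ^ 2 = d * (x ^ 2 * X * u))
    (hB : 1 + x ^ 4 * X ^ 3 + x ^ 4 * X ^ 4 = e * (x ^ 2 * X ^ 2 * v))
    (hm : x ^ 4 * X ^ 2 + x ^ 2 * X ^ 2 + x ^ 2 * X + 1 = a * (x ^ 2 * X ^ 2 * v))
    (hn : x ^ 4 * X ^ 4 + x ^ 4 * X ^ 2 + x ^ 2 * X ^ 2 + 1 = c * (x ^ 4 * X ^ 2 * u ^ 2)) :
    (x * X) ^ 3 + (x * X) ^ 2 * d + (x * X) * (x ^ 2 * X) * e + (x ^ 2 * X) * d * e + (x * X) ^ 2 + (x * X) * d + (x * X) * e + (x ^ 2 * X) * e + (x ^ 2 * X) + d + e + 1 = 0 := by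
  have h := evS_eq_zero Rs [x, X] N12 check12
  simp only [N12, evS, evProd, List.map_cons, List.map_nil] at h
  have tx : evP Rs [x, X] a_x.2 = x := ev_a_x x X
  have tX : evP Rs [x, X] a_X.2 = X := ev_a_X x X
  have tu : evP Rs [x, X] a_u.2 = u := by rw [ev_a_u, eu]; ring
  have tv : evP Rs [x, X] a_v.2 = v := by rw [ev_a_v, ev]; ring
  have tA : evP Rs [x, X] a_A.2 = d * (x ^ 2 * X * u) := by rw [ev_a_A, ← hA]; ring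
  have tB : evP Rs [x, X] a_B.2 = e * (x ^ 2 * X ^ 2 * v) := by rw [ev_a_B, ← hB]; ring
  have tm : evP Rs [x, X] a_m.2 = a * (x ^ 2 * X ^ 2 * v) := by rw [ev_a_m, ← hm]
  have tn : evP Rs [x, X] a_n.2 = c * (x ^ 4 * X ^ 2 * u ^ 2) := by rw [ev_a_n, ← hn]
  simp only [tx, tX, tu, tv, tA, tB, tm, tn] at h
  refine (mul_eq_zero.1 (?_ : (x ^ 2 * X ^ 2 * u ^ 1 * v ^ 1) * _ = 0)).resolve_left
    (mul_ne_zero (mul_ne_zero (mul_ne_zero (pow_ne_zero _ hx) (pow_ne_zero _ hX)) (pow_ne_zero _ hu)) (pow_ne_zero _ hv))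
  linear_combination h

theorem rel13 [IsDomain K] [CharP K 2] {x X u v d e a c : K} (hx : x ≠ 0) (hX : X ≠ 0) (hu : u ≠ 0) (hv : v ≠ 0)
    (eu : u = 1 + X + x * X) (ev : v = 1 + x ^ 2 + x ^ 2 * X)
    (hA : 1 + x ^ 3 * X ^ 2 + x ^ 4 * X ^ 2 = d * (x ^ 2 * X * u))
    (hB : 1 + x ^ 4 * X ^ 3 + x ^ 4 * X ^ 4 = e * (x ^ 2 * X ^ 2 * v))
    (hm : x ^ 4 * X ^ 2 + x ^ 2 * X ^ 2 + x ^ 2 * X + 1 = a * (x ^ 2 * X ^ 2 * v))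
    (hn : x ^ 4 * X ^ 4 + x ^ 4 * X ^ 2 + x ^ 2 * X ^ 2 + 1 = c * (x ^ 4 * X ^ 2 * u ^ 2)) :
    (x * X) ^ 2 * d + (x * X) ^ 2 * (a * c) + (x * X) * d ^ 2 + (x * X) * e * (a * c) + d * e ^ 2 + (x * X) * (x ^ 2 * X) + (x * X) * d + (x * X) * e + (x * X) * (a * c) + (x * X) * (a ^ 2 * c) + (x ^ 2 * X) * d + (x ^ 2 * X) * (a * c) + d ^ 2 + d * e + e * (a * c) + d + e + (a ^ 2 * c) + 1 = 0 := by
  have h := evS_eq_zero Rs [x, X] N13 check13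
  simp only [N13, evS, evProd, List.map_cons, List.map_nil] at h
  have tx : evP Rs [x, X] a_x.2 = x := ev_a_x x X
  have tX : evP Rs [x, X] a_X.2 = X := ev_a_X x X
  have tu : evP Rs [x, X] a_u.2 = u := by rw [ev_a_u, eu]; ring
  have tv : evP Rs [x, X] a_v.2 = v := by rw [ev_a_v, ev]; ring
  have tA : evP Rs [x, X] a_A.2 = d * (x ^ 2 * X * u) := by rw [ev_a_A, ← hA]; ring
  have tB : evP Rs [x, X] a_B.2 = e * (x ^ 2 * X ^ 2 * v) := by rw [ev_a_B, ← hB]; ring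
  have tm : evP Rs [x, X] a_m.2 = a * (x ^ 2 * X ^ 2 * v) := by rw [ev_a_m, ← hm]
  have tn : evP Rs [x, X] a_n.2 = c * (x ^ 4 * X ^ 2 * u ^ 2) := by rw [ev_a_n, ← hn]
  simp only [tx, tX, tu, tv, tA, tB, tm, tn] at h
  refine (mul_eq_zero.1 (?_ : (x ^ 8 * X ^ 6 * u ^ 2 * v ^ 2) * _ = 0)).resolve_left
    (mul_ne_zero (mul_ne_zero (mul_ne_zero (pow_ne_zero _ hx) (pow_ne_zero _ hX)) (pow_ne_zero _ hu)) (pow_ne_zero _ hv))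
  linear_combination h

theorem rel14 [IsDomain K] [CharP K 2] {x X u v d e a c : K} (hx : x ≠ 0) (hX : X ≠ 0) (hu : u ≠ 0) (hv : v ≠ 0)
    (eu : u = 1 + X + x * X) (ev : v = 1 + x ^ 2 + x ^ 2 * X)
    (hA : 1 + x ^ 3 * X ^ 2 + x ^ 4 * X ^ 2 = d * (x ^ 2 * X * u))
    (hB : 1 + x ^ 4 * X ^ 3 + x ^ 4 * X ^ 4 = e * (x ^ 2 * X ^ 2 * v))
    (hm : x ^ 4 * X ^ 2 + x ^ 2 * X ^ 2 + x ^ 2 * X + 1 = a * (x ^ 2 * X ^ 2 * v))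
    (hn : x ^ 4 * X ^ 4 + x ^ 4 * X ^ 2 + x ^ 2 * X ^ 2 + 1 = c * (x ^ 4 * X ^ 2 * u ^ 2)) :
    (x * X) ^ 2 * d ^ 2 + (x * X) ^ 2 * (a * c) + (x ^ 2 * X) ^ 2 + d ^ 2 + e = 0 := by
  have h := evS_eq_zero Rs [x, X] N14 check14
  simp only [N14, evS, evProd, List.map_cons, List.map_nil] at h
  have tx : evP Rs [x, X] a_x.2 = x := ev_a_x x X
  have tX : evP Rs [x, X] a_X.2 = X := ev_a_X x X
  have tu : evP Rs [x, X] a_u.2 = u := by rw [ev_a_u, eu]; ring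
  have tv : evP Rs [x, X] a_v.2 = v := by rw [ev_a_v, ev]; ring
  have tA : evP Rs [x, X] a_A.2 = d * (x ^ 2 * X * u) := by rw [ev_a_A, ← hA]; ring
  have tB : evP Rs [x, X] a_B.2 = e * (x ^ 2 * X ^ 2 * v) := by rw [ev_a_B, ← hB]; ring
  have tm : evP Rs [x, X] a_m.2 = a * (x ^ 2 * X ^ 2 * v) := by rw [ev_a_m, ← hm]
  have tn : evP Rs [x, X] a_n.2 = c * (x ^ 4 * X ^ 2 * u ^ 2) := by rw [ev_a_n, ← hn]
  simp only [tx, tX, tu, tv, tA, tB, tm, tn] at h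
  refine (mul_eq_zero.1 (?_ : (x ^ 4 * X ^ 2 * u ^ 2 * v ^ 1) * _ = 0)).resolve_left
    (mul_ne_zero (mul_ne_zero (mul_ne_zero (pow_ne_zero _ hx) (pow_ne_zero _ hX)) (pow_ne_zero _ hu)) (pow_ne_zero _ hv))
  linear_combination h

end Cfsg.Agent.H482.SzBase
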