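import Mathlib
import Cfsg.Agent.H483.SeqLaw

/-!
# The two-variable words `v₀ = x⁻² y⁻¹ x`, `v_{n+1} = [x v_n x⁻¹, y v_n y⁻¹]`

Generalities for S3935: compatibility with homomorphisms, vanishing on solvable groups, and the reduction to the
existence of pairs with `v₀ = v₁ ≠ 1` in minimal simple groups.
-/

set_option autoImplicit false

namespace Cfsg.Agent.H482.VSeq

universe u

variable {G : Type*} [Group G]

/-- The initial word. -/
def v0 (x y : G) : G := x⁻¹ * x⁻¹ * y⁻¹ * x

/-- One step of the recursion. -/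
def stp (x y v : G) : G := (x * v * x⁻¹) * (y * v * y⁻¹) * (x * v * x⁻¹)⁻¹ * (y * v * y⁻¹)⁻¹

/-- The word `v_n(x, y)`. -/
def vn (x y : G) (n : ℕ) : G := @Nat.rec (fun _ => G) (v0 x y) (fun _ v => stp x y v) n

theorem vn_zero (x y : G) : vn x y 0 = v0 x y := rfl

theorem vn_succ (x y : G) (n : ℕ) : vn x y (n + 1) = stp x y (vn x y n) := rfl

theorem map_v0 {H : Type*} [Group H] (f : G →* H) (x y : G) : f (v0 x y) = v0 (f x) (f y) := by
  simp only [v0, map_mul, map_inv]

theorem map_stp {H : Type*} [Group H] (f : G →* H) (x y v : G) :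
    f (stp x y v) = stp (f x) (f y) (f v) := by
  simp only [stp, map_mul, map_inv]

theorem map_vn {H : Type*} [Group H] (f : G →* H) (x y : G) (n : ℕ) :
    f (vn x y n) = vn (f x) (f y) n := by
  induction n with
  | zero => rw [vn_zero, vn_zero, map_v0]
  | succ n ih => rw [vn_succ, vn_succ, map_stp, ih]

theorem vn_mem_derivedSeries (x y : G) (n : ℕ) : vn x y n ∈ derivedSeries G n := by
  induction n with
  | zero => exact Subgroup.mem_top _
  | succ n ih =>
    rw [derivedSeries_succ]
    have h1 : x * vn x y n * x⁻¹ ∈ derivedSeries G n := (derivedSeries_normal (G := G) n).conj_mem _ ih x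
    have h2 : y * vn x y n * y⁻¹ ∈ derivedSeries G n := (derivedSeries_normal (G := G) n).conj_mem _ ih y
    exact Subgroup.commutator_mem_commutator h1 h2

/-- The law `v_n = 1` for some `n`. -/
def Law (G : Type*) [Group G] : Prop := ∃ n : ℕ, ∀ x y : G, vn x y n = 1

theorem law_of_isSolvable (h : Group.IsSolvable G) : Law G := by
  obtain ⟨n, hn⟩ := h.solvable
  refine ⟨n, fun x y => ?_⟩
  have := vn_mem_derivedSeries x y n
  rw [hn, Subgroup.mem_bot] at this
  exact this

theorem Law.of_injective {H : Type*} [Group H] (h : Law G) {f : H →* G} (hf : Function.Injective f) :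
    Law H := by
  obtain ⟨n, hn⟩ := h
  refine ⟨n, fun x y => hf ?_⟩
  rw [map_vn, hn, map_one]

theorem Law.of_surjective {H : Type*} [Group H] (h : Law G) {f : G →* H} (hf : Function.Surjective f) :
    Law H := by
  obtain ⟨n, hn⟩ := h
  refine ⟨n, fun x y => ?_⟩
  obtain ⟨x, rfl⟩ := hf x
  obtain ⟨y, rfl⟩ := hf y
  rw [← map_vn, hn, map_one]

/-- A pair on which the words never vanish contradicts the law. -/
theorem not_law_of {x y : G} (h : ∀ n, vn x y n ≠ 1) : ¬ Law G := by
  rintro ⟨n, hn⟩
  exact h n (hn x y)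

/-- A group has a *fixed pair* if there are `x, y` with `v₀(x,y) = v₁(x,y) ≠ 1`. -/
def FixedPair (G : Type*) [Group G] : Prop := ∃ x y : G, v0 x y ≠ 1 ∧ stp x y (v0 x y) = v0 x y

theorem FixedPair.not_law (h : FixedPair G) : ¬ Law G := by
  obtain ⟨x, y, h0, h1⟩ := h
  refine not_law_of (x := x) (y := y) fun n => ?_
  have : vn x y n = v0 x y := by
    induction n with
    | zero => rfl
    | succ n ih => rw [vn_succ, ih, h1]
  rw [this]; exact h0

theorem FixedPair.of_mulEquiv {H : Type*} [Group H] (h : FixedPair G) (e : G ≃* H) : FixedPair H := by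
  obtain ⟨x, y, h0, h1⟩ := h
  refine ⟨e x, e y, ?_, ?_⟩
  · have := map_v0 e.toMonoidHom x y
    change e (v0 x y) = v0 (e x) (e y) at this
    rw [← this]
    intro h
    exact h0 (e.injective (h.trans (map_one e).symm))
  · have h2 := map_v0 e.toMonoidHom x y
    change e (v0 x y) = v0 (e x) (e y) at h2
    have h3 := map_stp e.toMonoidHom x y (v0 x y)
    change e (stp x y (v0 x y)) = stp (e x) (e y) (e (v0 x y)) at h3
    rw [← h2, ← h3, h1]

/-- A fixed pair of a group modulo a central subgroup (or any kernel). -/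
theorem FixedPair.of_hom {H : Type*} [Group H] (f : G →* H) {x y : G} (h0 : f (v0 x y) ≠ 1)
    (h1 : stp x y (v0 x y) = v0 x y) : FixedPair H := by
  refine ⟨f x, f y, ?_, ?_⟩
  · rw [← map_v0]; exact h0
  · rw [← map_v0, ← map_stp, h1]

/-- The law forces solvability, provided that every finite minimal simple group violates it. -/
theorem solvable_of_law
    (hmin : ∀ (H : Type u) [Group H] [Finite H], Cfsg.IsMinimalSimple H → ¬ Law H)
    (G : Type u) [Group G] [Finite G] (h : Law G) : Group.IsSolvable G :=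
  Cfsg.Agent.H483.SeqLaw.solvable_of_property (fun H _ => Law H)
    (fun H _ K hH => hH.of_injective (f := K.subtype) K.subtype_injective)
    (fun H _ N _ hH => hH.of_surjective (QuotientGroup.mk'_surjective N))
    hmin _ G rfl h

end Cfsg.Agent.H482.VSeq
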