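import Cfsg.Agent.H482.SzPair
import Cfsg.Agent.H896.SuzExists
import Cfsg.Agent.H64.VsSz

/-!
# Fixed pairs in the Suzuki groups over fields of degree an odd prime
-/

set_option autoImplicit false

namespace Cfsg.Agent.H482.SzFixed

open Cfsg.Agent.LieRecognition.SzMatrix Cfsg.Agent.H482.VSeq

variable {F : Type*} [Field F]

theorem not_seven_dvd {r : ℕ} (h3 : ¬ 3 ∣ r) : ¬ 7 ∣ 2 ^ r - 1 := by
  intro h
  have h1 : 1 ≤ 2 ^ r := Nat.one_le_two_pow
  have hr : r = 3 * (r / 3) + r % 3 := (Nat.div_add_mod r 3).symm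
  have h8 : 2 ^ (3 * (r / 3)) % 7 = 1 := by
    rw [pow_mul, Nat.pow_mod]
    norm_num
  have h5 : r % 3 = 1 ∨ r % 3 = 2 := by omega
  have h6 : 2 ^ r % 7 = (2 ^ (3 * (r / 3)) % 7) * (2 ^ (r % 3) % 7) % 7 := by
    conv_lhs => rw [hr]
    rw [pow_add, Nat.mul_mod]
  rw [h8] at h6
  rcases h5 with h5 | h5 <;> rw [h5] at h6 <;> omega

theorem u_ne_zero [Fintype F] {m : ℕ} (h3 : ¬ 3 ∣ 2 * m + 1) (hF : Fintype.card F = 2 ^ (2 * m + 1))
    {θ : F →+* F} {e : ℕ} (H : Good F θ e) {x : F} (hx : x ≠ 0) : 1 + θ x + x * θ x ≠ 0 := by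
  have h2 : (2 : F) = 0 := H.two
  intro h
  have h' := congrArg θ h
  simp only [map_add, map_mul, map_one, map_zero, H.sq] at h'
  generalize θ x = X at h h'
  have k1 : x ^ 3 * X = 1 := by linear_combination x ^ 2 * h - h'
  have k2 : x ^ 3 + x + 1 = 0 := by linear_combination x ^ 3 * h - (x + 1) * k1
  have k3 : x ^ 7 = 1 := by
    linear_combination (x ^ 4 + x ^ 2 + x + 1) * k2 - (x ^ 5 + x ^ 4 + x ^ 3 + x ^ 2 + x + 1) * h2
  have k4 : x ^ (2 ^ (2 * m + 1) - 1) = 1 := by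
    rw [← hF]; exact FiniteField.pow_card_sub_one_eq_one x hx
  have hc : Nat.Coprime 7 (2 ^ (2 * m + 1) - 1) :=
    (Nat.Prime.coprime_iff_not_dvd (by norm_num)).2 (not_seven_dvd h3)
  have k5 : x = 1 := by
    have h1 : orderOf x ∣ 7 := orderOf_dvd_of_pow_eq_one k3
    have h4 : orderOf x ∣ 2 ^ (2 * m + 1) - 1 := orderOf_dvd_of_pow_eq_one k4
    exact orderOf_eq_one_iff.1 (Nat.eq_one_of_dvd_coprimes hc h1 h4)
  rw [k5] at k2
  apply one_ne_zero (α := F)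
  linear_combination k2 - h2

theorem fixedPair_sz [Fintype F] {m : ℕ} (hm : 1 ≤ m) (hp : (2 * m + 1).Prime)
    (hF : Fintype.card F = 2 ^ (2 * m + 1)) : FixedPair ↥(Cfsg.Lie.Sz F (2 ^ (m + 1))) := by
  rcases Nat.lt_or_ge m 2 with h | h
  · have hm1 : m = 1 := by omega
    subst hm1
    exact Cfsg.Agent.H64.VsSz.fixedPair_sz8 (F := F) (by rw [hF]; norm_num)
  · obtain ⟨x, y, hx, hA, hy⟩ := Cfsg.Agent.H896.SuzTab.exists_xy h hF (theta hF) (theta_apply hF)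
    have h3 : ¬ 3 ∣ 2 * m + 1 := by
      intro hd
      have := (Nat.prime_dvd_prime_iff_eq Nat.prime_three hp).1 hd
      omega
    obtain ⟨w, f, d, e, o, r, p, q, W0, W1, W2, K, D⟩ :=
      SzPt.exists_dat (good hF) hx hA (u_ne_zero h3 hF (good hF) hx) hy
    exact SzPair.fixedPair_of_dat (good hF) D

end Cfsg.Agent.H482.SzFixed
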