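import Cfsg.Agent.H482.SzPt
import Cfsg.Agent.H482.VSeq

/-!
# Pairs with `v₀ = v₁ ≠ 1` in the Suzuki groups
-/

set_option autoImplicit false

namespace Cfsg.Agent.H482.SzPair

open Matrix Cfsg.Agent.LieRecognition.SzMatrix Cfsg.Agent.H482.SzPt Cfsg.Agent.H482.SzNum
open Cfsg.Agent.H482.VSeq

variable {F : Type*} [Field F] {θ : F →+* F} {ee : ℕ}

/-- The action on column vectors. -/
def act (g : GL (Fin 4) F) (v : Fin 4 → F) : Fin 4 → F := g.1 *ᵥ v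

theorem act_mul (g h : GL (Fin 4) F) (v : Fin 4 → F) : act (g * h) v = act g (act h v) := by
  simp only [act, Units.val_mul, Matrix.mulVec_mulVec]

theorem act_one (v : Fin 4 → F) : act 1 v = v := by
  simp only [act, Units.val_one, Matrix.one_mulVec]

theorem act_U (H : Good F θ ee) (a b v0 v1 v2 v3 : F) : act (H.U a b) ![v0, v1, v2, v3] =
    ![v0 + a * v1 + b * v2 + (a * b + a ^ 2 * θ a + θ b) * v3, v1 + θ a * v2 + (b + a * θ a) * v3,
      v2 + a * v3, v3] := by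
  rw [act, H.U_val, Umat_def]
  ext i
  fin_cases i <;> simp [Matrix.mulVec, dotProduct, Fin.sum_univ_four]

theorem act_W (v0 v1 v2 v3 : F) : act (W F) ![v0, v1, v2, v3] = ![v3, v2, v1, v0] := by
  rw [act, W_val, Cfsg.Agent.LieRecognition.SzMatrix.J]
  ext i
  fin_cases i <;> simp [Matrix.mulVec, dotProduct, Fin.sum_univ_four]

theorem act_D_e0 (H : Good F θ ee) (k : Fˣ) : act (H.D k) ![1, 0, 0, 0] = ![(k : F), 0, 0, 0] := by
  rw [act, H.D_val, Dmat_def]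
  ext i
  fin_cases i <;> simp [Matrix.mulVec, dotProduct, Fin.sum_univ_four]

theorem act_w (H : Good F θ ee) {κ β a b W0 W1 W2 W3 T0 T1 T2 T3 K : F} (hβ : θ β = κ ^ 2)
    (hW0 : W0 = κ) (hW1 : W1 = κ * a) (hW2 : W2 = κ * (b + a * θ a))
    (hW3 : W3 = κ * (a * b + a ^ 2 * θ a + θ b)) (hT0 : T0 = β) (hT1 : T1 = β * θ a)
    (hT2 : T2 = β * (θ b + θ a * a ^ 2)) (hT3 : T3 = β * (θ a * θ b + θ a ^ 2 * a ^ 2 + b ^ 2))
    (hK : K = β * b) (v0 v1 v2 v3 : F) :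
    act (W F * H.U a b * W F * H.U 0 β * (W F * H.U a (b + a * θ a) * W F)) ![v0, v1, v2, v3] =
      ![v0 + (v0 * W3 + v1 * W2 + v2 * W1 + v3 * W0) * W0 + (T0 * v2 + T1 * v1 + K * v0),
        v1 + (v0 * W3 + v1 * W2 + v2 * W1 + v3 * W0) * W1 + (T0 * v3 + K * v1 + T2 * v0),
        v2 + (v0 * W3 + v1 * W2 + v2 * W1 + v3 * W0) * W2 + (T1 * v3 + K * v2 + T3 * v0),
        v3 + (v0 * W3 + v1 * W2 + v2 * W1 + v3 * W0) * W3 + (K * v3 + T2 * v2 + T3 * v1)] := by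
  have h2 := H.two
  have hb : θ (b + a * θ a) = θ b + θ a * a ^ 2 := by rw [map_add, map_mul, H.sq]
  simp only [act_mul, act_W, act_U, hb, hβ, map_zero, zero_mul, mul_zero, add_zero, zero_pow, ne_eq,
    OfNat.ofNat_ne_zero, not_false_eq_true, zero_add]
  subst hW0 hW1 hW2 hW3 hT0 hT1 hT2 hT3 hK
  generalize θ a = a'
  generalize θ b = b'
  ext i
  fin_cases i
  · simp only [Fin.zero_eta, Matrix.cons_val_zero]
    linear_combination (a * a' * v0 * T0 + a ^ 2 * a' * v0 * W0 ^ 2) * h2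
  · simp only [Fin.mk_one, Matrix.cons_val_one, Matrix.cons_val_zero]
    linear_combination (a * a' * v1 * T0 + a * b * v0 * T0 + a * v0 + a * v2 * T0 + 2 * a ^ 2 * a' * v0 * T0 + a ^ 3 * a' * v0 * W0 ^ 2) * h2
  · simp only [Fin.reduceFinMk, Matrix.cons_val]
    linear_combination (2 * a * a' * b * v0 * T0 + 2 * a * a' * v0 + a * a' * v2 * T0 + a * a' ^ 2 * v1 * T0 + a ^ 2 * a' * b * v0 * W0 ^ 2 + 2 * a ^ 2 * a' ^ 2 * v0 * T0 + a ^ 3 * a' ^ 2 * v0 * W0 ^ 2 + a' * b * v1 * T0 + a' * v1 + b * v0) * h2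
  · simp only [Fin.reduceFinMk, Matrix.cons_val]
    linear_combination (a * a' * b * v1 * T0 + a * a' * b' * v0 * T0 + a * a' * v1 + 2 * a * b * v0 + a * b * v2 * T0 + a * b ^ 2 * v0 * T0 + a * v2 + 3 * a ^ 2 * a' * b * v0 * T0 + a ^ 2 * a' * b' * v0 * W0 ^ 2 + 3 * a ^ 2 * a' * v0 + a ^ 3 * a' * b * v0 * W0 ^ 2 + a ^ 3 * a' ^ 2 * v0 * T0 + a ^ 4 * a' ^ 2 * v0 * W0 ^ 2 + b * b' * v0 * T0 + b * v1 + b' * v0) * h2

theorem U_sq (H : Good F θ ee) (b : F) : H.U 0 b * H.U 0 b = 1 := by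
  rw [H.U_mul, ← H.U_zero]
  congr 1
  · simp
  · rw [map_zero, mul_zero, add_zero]; exact H.add_self b

/-- Group theory: the relation between the involutions gives `v₁ = v₀`. -/
theorem stp_of_rel {G : Type*} [Group G] {t u w : G} (ht : t * t = 1) (hu : u * u = 1) (hw : w * w = 1)
    (h : (u * t * w * u * t * u * t * w) * u * (u * t * w * u * t * u * t * w)⁻¹ = w) :
    stp (t * u) (t * w) (v0 (t * u) (t * w)) = v0 (t * u) (t * w) := by
  have t' : t⁻¹ = t := inv_eq_of_mul_eq_one_left ht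
  have u' : u⁻¹ = u := inv_eq_of_mul_eq_one_left hu
  have w' : w⁻¹ = w := inv_eq_of_mul_eq_one_left hw
  have tt : ∀ z : G, t * (t * z) = z := fun z => by rw [← mul_assoc, ht, one_mul]
  have uu : ∀ z : G, u * (u * z) = z := fun z => by rw [← mul_assoc, hu, one_mul]
  have ww : ∀ z : G, w * (w * z) = z := fun z => by rw [← mul_assoc, hw, one_mul]
  have h' : u * (t * (w * (u * (t * (u * (t * (w * (u * (w * (t * (u * (t * (u * (w * t)))))))))))))) =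
      w * u := by
    have : ((u * t * w * u * t * u * t * w) * u * (u * t * w * u * t * u * t * w)⁻¹) * u = w * u := by rw [h]
    simp only [_root_.mul_inv_rev, t', u', w', mul_assoc, hu, mul_one] at this
    exact this
  simp only [stp, v0, _root_.mul_inv_rev, inv_inv, t', u', w', mul_assoc, tt, uu, ww, ht, hu, hw, mul_one]
  rw [h']

theorem v0_ne_one {G : Type*} [Group G] {t u w : G} (ht : t * t = 1) (hu : u * u = 1) (hw : w * w = 1)
    (h : w ≠ t * u * t) : v0 (t * u) (t * w) ≠ 1 := by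
  have t' : t⁻¹ = t := inv_eq_of_mul_eq_one_left ht
  have u' : u⁻¹ = u := inv_eq_of_mul_eq_one_left hu
  have w' : w⁻¹ = w := inv_eq_of_mul_eq_one_left hw
  have tt : ∀ z : G, t * (t * z) = z := fun z => by rw [← mul_assoc, ht, one_mul]
  have uu : ∀ z : G, u * (u * z) = z := fun z => by rw [← mul_assoc, hu, one_mul]
  intro h0
  apply h
  have h1 : t * (u * (t * (u * (v0 (t * u) (t * w) * u)))) = w := by
    simp only [v0, _root_.mul_inv_rev, t', u', w', mul_assoc, tt, uu, hu, mul_one]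
  rw [h0, one_mul, hu, mul_one] at h1
  rw [← h1, mul_assoc]

variable {w f d e o r p q W0 W1 W2 K : F}

theorem W0_ne (H : Good F θ ee) (D : Dat θ w f d e o r p q W0 W1 W2 K) : W0 ≠ 0 := by
  have h2 : (2 : F) = 0 := H.two
  haveI : CharP F 2 := CharTwo.of_one_ne_zero_of_two_eq_zero one_ne_zero h2
  intro h
  have c0 := cone0 D.pt
  rw [h, map_zero, mul_zero, zero_mul, add_zero, zero_add] at c0
  have hW1 : W1 = 0 := by
    rcases mul_eq_zero.1 c0 with h1 | h1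
    · exact h1
    · exact (map_eq_zero θ).1 h1
  have e1 := D.pt.hW1
  have e0 := D.pt.hW0
  have eT := D.pt.hT1
  rw [hW1, mul_zero] at e1
  rw [h, mul_zero] at e0
  rw [hW1, map_zero, mul_zero] at eT
  have ho : o = e := by linear_combination e0 - e1 - eT
  have hr : r = d ^ 2 := by rw [← D.tO, ho, D.te]
  have hp : p = d + d * e := by linear_combination e1 - (d + d * e) * h2
  have hf : f = d ^ 2 + e := by
    rw [hp] at eT
    linear_combination eT - (d ^ 2 * e + d ^ 2 + e) * h2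
  have r2 := D.pt.rel.r2
  rw [ho, hr, hf] at r2
  have h3 : e * (e + 1) = 0 := by
    linear_combination r2 - (d ^ 2 * e + d ^ 4) * h2
  rcases mul_eq_zero.1 h3 with h4 | h4
  · exact D.e0 h4
  · apply D.pt.hp
    rw [hp]
    linear_combination d * h4

theorem fixedPair_of_dat (H : Good F θ ee) (D : Dat θ w f d e o r p q W0 W1 W2 K) :
    FixedPair ↥(Cfsg.Lie.Sz F ee) := by
  have h2 : (2 : F) = 0 := H.two
  haveI : CharP F 2 := CharTwo.of_one_ne_zero_of_two_eq_zero one_ne_zero h2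
  have hW0 := W0_ne H D
  have hT0 : θ W0 ≠ 0 := fun h => hW0 ((map_eq_zero θ).1 h)
  have c0 := cone0 D.pt
  have c1 := cone1 D.pt
  obtain ⟨κ, hκ⟩ : ∃ κ : Fˣ, (κ : F) = W0 := ⟨Units.mk0 W0 hW0, rfl⟩
  obtain ⟨a, ha⟩ : ∃ a, a = W1 / W0 := ⟨_, rfl⟩
  obtain ⟨b, hb⟩ : ∃ b, b = W2 / W0 + a * θ a := ⟨_, rfl⟩
  obtain ⟨T0, hT0d⟩ : ∃ T0, T0 = θ W0 := ⟨_, rfl⟩
  obtain ⟨T1, hT1d⟩ : ∃ T1, T1 = θ W1 := ⟨_, rfl⟩
  obtain ⟨T2, hT2d⟩ : ∃ T2, T2 = θ W2 := ⟨_, rfl⟩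
  have hTT : θ T0 = W0 ^ 2 := by rw [hT0d]; exact H.sq W0
  have hθa : θ a = T1 / T0 := by rw [ha, map_div₀, hT1d, hT0d]
  have hθb : θ b = T2 / T0 + (T1 / T0) * a ^ 2 := by
    rw [hb, map_add, map_mul, map_div₀, H.sq, hθa, hT2d, hT0d]
  simp only [← hT0d, ← hT1d, ← hT2d] at c0 c1
  rw [← hT0d] at hT0
  have e1 : W1 = W0 * a := by rw [ha]; field_simp
  have e2 : W2 = W0 * (b + a * θ a) := by
    rw [hb]
    have : W2 = W0 * (W2 / W0) := by field_simp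
    linear_combination this - (W0 * a * θ a) * h2
  have eK : K = T0 * b := by
    have : W0 * K = W0 * (T0 * b) := by
      have h3 : W0 * b = W2 + W1 * θ a := by
        rw [hb, ha]; field_simp
      have h4 : T0 * θ a = T1 := by rw [hθa]; field_simp
      linear_combination c0 - T0 * h3 - W1 * h4 - (T0 * W2 + W1 * T1) * h2
    exact mul_left_cancel₀ hW0 this
  have e3 : o = W0 * (a * b + a ^ 2 * θ a + θ b) := by
    have : T0 * o = T0 * (W0 * (a * b + a ^ 2 * θ a + θ b)) := by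
      have h4 : T0 * θ a = T1 := by rw [hθa]; field_simp
      have h5 : T0 * θ b = T2 + T1 * a ^ 2 := by rw [hθb]; field_simp
      linear_combination c1 - (W0 * a ^ 2) * h4 - W0 * h5 + (W0 * a) * eK - K * e1 - (T2 * W0 + W0 * a ^ 2 * T1 + W0 * a * K) * h2
    exact mul_left_cancel₀ hT0 this
  have e4 : T1 = T0 * θ a := by rw [hθa]; field_simp
  have e5 : T2 = T0 * (θ b + θ a * a ^ 2) := by
    have h5 : T0 * θ b = T2 + T1 * a ^ 2 := by rw [hθb]; field_simp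
    linear_combination a ^ 2 * e4 - h5 - (a ^ 2 * T1) * h2
  have e6 : r = T0 * (θ a * θ b + θ a ^ 2 * a ^ 2 + b ^ 2) := by
    have h6 := D.tO
    rw [e3, map_mul, map_add, map_add, map_mul, map_mul, map_pow, H.sq, H.sq, ← hT0d] at h6
    rw [← h6]
  -- the elements
  obtain ⟨uG, huG⟩ : ∃ uG, uG = H.U 0 1 := ⟨_, rfl⟩
  obtain ⟨tG, htG⟩ : ∃ tG, tG = W F * H.U 0 p * W F := ⟨_, rfl⟩
  obtain ⟨gG, hgG⟩ : ∃ gG, gG = W F * H.U a b * W F * H.D κ := ⟨_, rfl⟩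
  obtain ⟨wG, hwG⟩ : ∃ wG, wG = gG * uG * gG⁻¹ := ⟨_, rfl⟩
  have uM : uG ∈ Cfsg.Lie.Sz F ee := by rw [huG]; exact H.U_mem _ _
  have tM : tG ∈ Cfsg.Lie.Sz F ee := by rw [htG]; exact mul_mem (mul_mem H.W_mem (H.U_mem _ _)) H.W_mem
  have gM : gG ∈ Cfsg.Lie.Sz F ee := by
    rw [hgG]; exact mul_mem (mul_mem (mul_mem H.W_mem (H.U_mem _ _)) H.W_mem) (H.D_mem _)
  have wM : wG ∈ Cfsg.Lie.Sz F ee := by rw [hwG]; exact mul_mem (mul_mem gM uM) (inv_mem gM)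
  have uu : uG * uG = 1 := by rw [huG]; exact U_sq H 1
  have tt : tG * tG = 1 := by
    rw [htG]
    calc W F * H.U 0 p * W F * (W F * H.U 0 p * W F)
        = W F * (H.U 0 p * (W F * W F) * H.U 0 p) * W F := by simp only [mul_assoc]
      _ = 1 := by rw [W_mul_W, mul_one, U_sq, mul_one, W_mul_W]
  have ww : wG * wG = 1 := by
    rw [hwG]
    calc gG * uG * gG⁻¹ * (gG * uG * gG⁻¹) = gG * (uG * uG) * gG⁻¹ := by group
      _ = 1 := by rw [uu]; group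
  have Wi : (W F)⁻¹ = W F := inv_eq_of_mul_eq_one_left W_mul_W
  have hw : wG = W F * H.U a b * W F * H.U 0 T0 * (W F * H.U a (b + a * θ a) * W F) := by
    have h1 : H.D κ * H.U 0 1 = H.U 0 T0 * H.D κ := by
      rw [H.D_mul_U, zero_mul, zero_mul, one_mul, hκ, ← hT0d]
    rw [hwG, hgG, huG]
    calc W F * H.U a b * W F * H.D κ * H.U 0 1 * (W F * H.U a b * W F * H.D κ)⁻¹
        = W F * H.U a b * W F * (H.D κ * H.U 0 1) * ((H.D κ)⁻¹ * ((W F)⁻¹ * (H.U a b)⁻¹ * (W F)⁻¹)) := by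
          group
      _ = W F * H.U a b * W F * H.U 0 T0 * (W F * H.U a (b + a * θ a) * W F) := by
          rw [h1, Wi, H.U_inv]
          group
  have actw : ∀ v0 v1 v2 v3 : F, act wG ![v0, v1, v2, v3] =
      ![v0 + (v0 * o + v1 * W2 + v2 * W1 + v3 * W0) * W0 + (T0 * v2 + T1 * v1 + K * v0),
        v1 + (v0 * o + v1 * W2 + v2 * W1 + v3 * W0) * W1 + (T0 * v3 + K * v1 + T2 * v0),
        v2 + (v0 * o + v1 * W2 + v2 * W1 + v3 * W0) * W2 + (T1 * v3 + K * v2 + r * v0),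
        v3 + (v0 * o + v1 * W2 + v2 * W1 + v3 * W0) * o + (K * v3 + T2 * v2 + r * v1)] := by
    intro v0 v1 v2 v3
    rw [hw]
    exact act_w H hTT rfl e1 e2 e3 rfl e4 e5 e6 eK v0 v1 v2 v3
  have actu : ∀ v0 v1 v2 v3 : F, act uG ![v0, v1, v2, v3] = ![v0 + v2 + v3, v1 + v3, v2, v3] := by
    intro v0 v1 v2 v3
    rw [huG, act_U]
    simp
  have actt : ∀ v0 v1 v2 v3 : F, act tG ![v0, v1, v2, v3] = ![v0, v1, v2 + p * v0, v3 + p * v1 + q * v0] := by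
    intro v0 v1 v2 v3
    rw [htG, act_mul, act_mul, act_W, act_U, act_W]
    simp [D.tp]
  have actg : act gG ![1, 0, 0, 0] = ![W0, W1, W2, o] := by
    rw [hgG, act_mul, act_D_e0, act_mul, act_mul, act_W, act_U, act_W, hκ, e1, e2, e3]
    ext i
    fin_cases i <;> simp <;> ring
  have actw0 : act wG ![1, 0, 0, 0] = ![1 + o * W0 + K, o * W1 + T2, o * W2 + r, o ^ 2] := by
    rw [actw]
    ext i
    fin_cases i <;> simp <;> ring
  -- the main relation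
  have main : act wG (act tG (act uG ![W0, W1, W2, o])) =
      act uG (act tG (act uG (act tG (act wG ![1, 0, 0, 0])))) := by
    obtain ⟨Y0, hY0⟩ : ∃ Y0, Y0 = W0 + W2 + o := ⟨_, rfl⟩
    obtain ⟨Y1, hY1⟩ : ∃ Y1, Y1 = W1 + o := ⟨_, rfl⟩
    obtain ⟨Y2, hY2⟩ : ∃ Y2, Y2 = W2 + p * Y0 := ⟨_, rfl⟩
    obtain ⟨Y3, hY3⟩ : ∃ Y3, Y3 = o + p * Y1 + q * Y0 := ⟨_, rfl⟩
    obtain ⟨X0, hX0⟩ : ∃ X0, X0 = 1 + o * W0 + K := ⟨_, rfl⟩
    obtain ⟨X1, hX1⟩ : ∃ X1, X1 = o * W1 + T2 := ⟨_, rfl⟩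
    obtain ⟨X2, hX2⟩ : ∃ X2, X2 = o * W2 + r := ⟨_, rfl⟩
    obtain ⟨X3, hX3⟩ : ∃ X3, X3 = o ^ 2 := ⟨_, rfl⟩
    obtain ⟨A2, hA2⟩ : ∃ A2, A2 = X2 + p * X0 := ⟨_, rfl⟩
    obtain ⟨A3, hA3⟩ : ∃ A3, A3 = X3 + p * X1 + q * X0 := ⟨_, rfl⟩
    obtain ⟨U0, hU0⟩ : ∃ U0, U0 = X0 + A2 + A3 := ⟨_, rfl⟩
    obtain ⟨U1, hU1⟩ : ∃ U1, U1 = X1 + A3 := ⟨_, rfl⟩
    obtain ⟨B2, hB2⟩ : ∃ B2, B2 = A2 + p * U0 := ⟨_, rfl⟩
    obtain ⟨B3, hB3⟩ : ∃ B3, B3 = A3 + p * U1 + q * U0 := ⟨_, rfl⟩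
    obtain ⟨V0, hV0⟩ : ∃ V0, V0 = U0 + B2 + B3 := ⟨_, rfl⟩
    obtain ⟨V1, hV1⟩ : ∃ V1, V1 = U1 + B3 := ⟨_, rfl⟩
    obtain ⟨B, hB⟩ : ∃ B, B = Y0 * o + Y1 * W2 + Y2 * W1 + Y3 * W0 := ⟨_, rfl⟩
    have PT := D.pt
    rw [← hT0d, ← hT1d, ← hT2d] at PT
    have f0 := fin0 PT hY0 hY1 hY2 hY3 hX0 hX1 hX2 hX3 hA2 hA3 hU0 hU1 hB2 hB3 hV0 hV1 hB
    have f1 := fin1 PT hY0 hY1 hY2 hY3 hX0 hX1 hX2 hX3 hA2 hA3 hU0 hU1 hB2 hB3 hV0 hV1 hB
    have f2 := fin2 PT hY0 hY1 hY2 hY3 hX0 hX1 hX2 hX3 hA2 hA3 hU0 hU1 hB2 hB3 hV0 hV1 hB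
    have f3 := fin3 PT hY0 hY1 hY2 hY3 hX0 hX1 hX2 hX3 hA2 hA3 hU0 hU1 hB2 hB3 hV0 hV1 hB
    rw [CharTwo.add_eq_zero] at f0 f1 f2 f3
    have ey : act tG (act uG ![W0, W1, W2, o]) = ![Y0, Y1, Y2, Y3] := by
      rw [actu, actt, hY3, hY2, hY1, hY0]
    have ex : act uG (act tG (act uG (act tG (act wG ![1, 0, 0, 0])))) = ![V0, V1, B2, B3] := by
      rw [actw0, ← hX0, ← hX1, ← hX2, ← hX3, actt, ← hA2, ← hA3, actu, ← hU0, ← hU1, actt, ← hB2, ← hB3,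
        actu, ← hV0, ← hV1]
    rw [ex, ey, actw, ← hB, f0, f1, f2, f3]
  have act_sq : ∀ (g : GL (Fin 4) F), g * g = 1 → ∀ v, act g (act g v) = v := by
    intro g hg v
    rw [← act_mul, hg, act_one]
  have hcol : act (uG * tG * wG * uG * tG * uG * tG * wG) ![1, 0, 0, 0] = ![W0, W1, W2, o] := by
    simp only [act_mul]
    rw [← main, act_sq wG ww, act_sq tG tt, act_sq uG uu]
  obtain ⟨hG, hhG⟩ : ∃ hG, hG = uG * tG * wG * uG * tG * uG * tG * wG := ⟨_, rfl⟩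
  rw [← hhG] at hcol
  have hM : hG ∈ Cfsg.Lie.Sz F ee := by
    rw [hhG]
    exact mul_mem (mul_mem (mul_mem (mul_mem (mul_mem (mul_mem (mul_mem uM tM) wM) uM) tM) uM) tM) wM
  have hcol2 : act (gG⁻¹ * hG) ![1, 0, 0, 0] = ![1, 0, 0, 0] := by
    rw [act_mul, hcol, ← actg, ← act_mul, inv_mul_cancel, act_one]
  have colv : ∀ (g : GL (Fin 4) F) (i : Fin 4), g.1 i 0 = act g ![1, 0, 0, 0] i := by
    intro g i
    simp [act, Matrix.mulVec, dotProduct, Fin.sum_univ_four]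
  have hU := H.eq_U (mul_mem (inv_mem gM) hM) (by rw [colv, hcol2]; rfl) (by rw [colv, hcol2]; rfl)
  generalize (gG⁻¹ * hG).1 0 1 = α at hU
  generalize (gG⁻¹ * hG).1 0 2 = α' at hU
  have hcomm : H.U α α' * H.U 0 1 = H.U 0 1 * H.U α α' := by
    rw [H.U_mul, H.U_mul, map_zero, mul_zero, zero_mul, add_zero, zero_add, add_zero, add_zero, add_comm α' 1]
  have hrel : hG * uG * hG⁻¹ = wG := by
    have h1 : hG = gG * H.U α α' := by rw [← hU]; group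
    rw [hwG, h1, huG]
    calc gG * H.U α α' * H.U 0 1 * (gG * H.U α α')⁻¹
        = gG * (H.U α α' * H.U 0 1) * (H.U α α')⁻¹ * gG⁻¹ := by group
      _ = gG * H.U 0 1 * gG⁻¹ := by rw [hcomm]; group
  have hne : wG ≠ tG * uG * tG := by
    intro h
    have h1 : act wG ![1, 0, 0, 0] = act (tG * uG * tG) ![1, 0, 0, 0] := by rw [h]
    rw [actw0, act_mul, act_mul, actt, actu, actt] at h1
    have g3 := congrFun h1 3
    have g2 := congrFun h1 2
    have g1 := congrFun h1 1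
    simp only [Matrix.cons_val, mul_one, mul_zero, add_zero, zero_add, Matrix.cons_val_one, Matrix.cons_val_zero] at g1 g2 g3
    have ho : o = q := by
      have h5 : (o - q) ^ 2 = 0 := by linear_combination g3 + (q + p * q + q ^ 2 - o * q) * h2
      exact sub_eq_zero.1 (pow_eq_zero_iff (two_ne_zero) |>.1 h5)
    have hr : r = p ^ 2 := by
      rw [← D.tO, ho, ← D.tp]; exact H.sq p
    have hW2 : W2 = p := by
      have : q * W2 = q * p := by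
        rw [ho, hr] at g2
        linear_combination g2 + p * h2
      exact mul_left_cancel₀ D.pt.hq0 this
    have hW1 : W1 = 0 := by
      have : q * W1 = 0 := by
        rw [hT2d, hW2, D.tp, ho] at g1
        linear_combination g1
      exact (mul_eq_zero.1 this).resolve_left D.pt.hq0
    have e1' := D.pt.hW1
    have e2' := D.pt.hW2
    rw [hW1, mul_zero] at e1'
    rw [hW2, ho] at e2'
    apply D.e0
    linear_combination e2' - p * e1'
  refine ⟨⟨tG, tM⟩ * ⟨uG, uM⟩, ⟨tG, tM⟩ * ⟨wG, wM⟩, ?_, ?_⟩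
  · refine v0_ne_one (Subtype.ext tt) (Subtype.ext uu) (Subtype.ext ww) ?_
    intro h
    exact hne (congrArg Subtype.val h)
  · refine stp_of_rel (Subtype.ext tt) (Subtype.ext uu) (Subtype.ext ww) (Subtype.ext ?_)
    have := hrel
    rw [hhG] at this
    exact this

end Cfsg.Agent.H482.SzPair
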