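import Cfsg.Agent.H482.SzBase
import Cfsg.Agent.H482.SzNum
import Cfsg.Agent.LieRecognition.SzMatrix

/-!
# The numbers of the Suzuki parametrisation
-/

set_option autoImplicit false

namespace Cfsg.Agent.H482.SzPt

open Cfsg.Agent.H482.SzNum Cfsg.Agent.LieRecognition.SzMatrix

variable {F : Type*} [Field F] {θ : F →+* F} {ee : ℕ}

/-- The numbers, with their images under `θ`. -/
structure Dat (θ : F →+* F) (w f d e o r p q W0 W1 W2 K : F) : Prop where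
  pt : Pt w f d e o r p q W0 W1 W2 (θ W0) (θ W1) (θ W2) K
  tp : θ p = q
  td : θ d = e
  te : θ e = d ^ 2
  tf : θ f = w ^ 2
  tO : θ o = r
  tR : θ r = o ^ 2
  e0 : e ≠ 0

theorem exists_dat (H : Good F θ ee) {x y : F} (hx : x ≠ 0) (hA : 1 + x ^ 3 * θ x ^ 2 + x ^ 4 * θ x ^ 2 ≠ 0)
    (hu : 1 + θ x + x * θ x ≠ 0)
    (hy : y + θ y = ((x ^ 3 * θ x ^ 2 + x ^ 4 * θ x ^ 2 + x ^ 3 * θ x) / (1 + x ^ 3 * θ x ^ 2 + x ^ 4 * θ x ^ 2)) *
        θ ((x ^ 3 * θ x ^ 2 + x ^ 4 * θ x ^ 2 + x ^ 3 * θ x) / (1 + x ^ 3 * θ x ^ 2 + x ^ 4 * θ x ^ 2))) :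
    ∃ w f d e o r p q W0 W1 W2 K : F, Dat θ w f d e o r p q W0 W1 W2 K := by
  have h2 : (2 : F) = 0 := H.two
  haveI : CharP F 2 := CharTwo.of_one_ne_zero_of_two_eq_zero one_ne_zero h2
  obtain ⟨X, hX⟩ : ∃ X, X = θ x := ⟨_, rfl⟩
  have hX2 : θ X = x ^ 2 := by rw [hX]; exact H.sq x
  rw [← hX] at hA hu hy
  have hX0 : X ≠ 0 := by rw [hX]; exact fun h => hx ((map_eq_zero θ).1 h)
  obtain ⟨A, hAd⟩ : ∃ A, A = 1 + x ^ 3 * X ^ 2 + x ^ 4 * X ^ 2 := ⟨_, rfl⟩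
  obtain ⟨u, hud⟩ : ∃ u, u = 1 + X + x * X := ⟨_, rfl⟩
  obtain ⟨v, hvd⟩ : ∃ v, v = 1 + x ^ 2 + x ^ 2 * X := ⟨_, rfl⟩
  rw [← hAd] at hA hy
  rw [← hud] at hu
  have hvu : θ u = v := by
    rw [hud, hvd, map_add, map_add, map_mul, map_one, hX2, ← hX]; ring
  have hv : v ≠ 0 := by rw [← hvu]; exact fun h => hu ((map_eq_zero θ).1 h)
  have hvv : θ v = u ^ 2 := by rw [← hvu]; exact H.sq u
  -- the number `d`
  obtain ⟨d, hd⟩ : ∃ d, d = A / (x ^ 2 * X * u) := ⟨_, rfl⟩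
  have hden : x ^ 2 * X * u ≠ 0 := mul_ne_zero (mul_ne_zero (pow_ne_zero _ hx) hX0) hu
  have hdA : A = d * (x ^ 2 * X * u) := by rw [hd]; field_simp
  have hd0 : d ≠ 0 := by
    intro h
    rw [h, zero_mul] at hdA
    exact hA hdA
  obtain ⟨e, he⟩ : ∃ e, e = θ d := ⟨_, rfl⟩
  have he0 : e ≠ 0 := by rw [he]; exact fun h => hd0 ((map_eq_zero θ).1 h)
  have he2 : θ e = d ^ 2 := by rw [he]; exact H.sq d
  have hB : 1 + x ^ 4 * X ^ 3 + x ^ 4 * X ^ 4 = e * (x ^ 2 * X ^ 2 * v) := by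
    have h := congrArg θ hdA
    rw [hAd] at h
    simp only [map_add, map_mul, map_pow, map_one, hX2, ← hX, ← he, hvu] at h
    linear_combination h
  have hA' : 1 + x ^ 3 * X ^ 2 + x ^ 4 * X ^ 2 = d * (x ^ 2 * X * u) := by rw [← hAd]; exact hdA
  -- the numbers `a`, `c`
  obtain ⟨a, ha⟩ : ∃ a, a = 1 + e + (x * X) ^ 2 + (x ^ 2 * X) * e := ⟨_, rfl⟩
  obtain ⟨c, hc⟩ : ∃ c, c = θ a := ⟨_, rfl⟩
  have hca : θ c = a ^ 2 := by rw [hc]; exact H.sq a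
  have hm : x ^ 4 * X ^ 2 + x ^ 2 * X ^ 2 + x ^ 2 * X + 1 = a * (x ^ 2 * X ^ 2 * v) := by
    rw [ha]
    have hvd' := hvd
    linear_combination (1 + x ^ 2 * X) * hB - ((1 + x ^ 2 * X ^ 2) * (x ^ 2 * X ^ 2)) * hvd'
      - (x ^ 4 * X ^ 3 + x ^ 4 * X ^ 4 + x ^ 6 * X ^ 4 + x ^ 6 * X ^ 5) * h2
  have hn : x ^ 4 * X ^ 4 + x ^ 4 * X ^ 2 + x ^ 2 * X ^ 2 + 1 = c * (x ^ 4 * X ^ 2 * u ^ 2) := by
    have h := congrArg θ hm
    simp only [map_add, map_mul, map_pow, map_one, hX2, ← hX, ← hc, hvv] at h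
    linear_combination h
  -- the point `p`
  obtain ⟨h, hh⟩ : ∃ h, h = (x ^ 3 * X ^ 2 + x ^ 4 * X ^ 2 + x ^ 3 * X) / A := ⟨_, rfl⟩
  rw [← hh] at hy
  have hhd : h * d = x := by
    rw [hh, hd, hud]
    rw [hud] at hu
    field_simp
    ring
  obtain ⟨k, hk⟩ : ∃ k, k = θ h := ⟨_, rfl⟩
  have hk2 : θ k = h ^ 2 := by rw [hk]; exact H.sq h
  have hke : k * e = X := by
    have := congrArg θ hhd
    rw [map_mul, ← hk, ← he, ← hX] at this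
    exact this
  obtain ⟨Y, hY⟩ : ∃ Y, Y = θ y := ⟨_, rfl⟩
  have hY2 : θ Y = y ^ 2 := by rw [hY]; exact H.sq y
  rw [← hY, ← hk] at hy
  have hy2 : Y + y ^ 2 = k * h ^ 2 := by
    have := congrArg θ hy
    rw [map_add, map_mul, ← hY, hY2, ← hk, hk2] at this
    exact this
  have hh0 : h ≠ 0 := by
    intro h0
    rw [h0, zero_mul] at hhd
    exact hx hhd.symm
  have hk0 : k ≠ 0 := by rw [hk]; exact fun h0 => hh0 ((map_eq_zero θ).1 h0)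
  have hY0 : Y ≠ 0 := by
    intro h0
    have h1 : y = 0 := by
      rw [hY] at h0
      exact (map_eq_zero θ).1 h0
    rw [h0, h1, add_zero] at hy
    exact mul_ne_zero hh0 hk0 hy.symm
  obtain ⟨p, hp⟩ : ∃ p, p = Y * d * e := ⟨_, rfl⟩
  have hp0 : p ≠ 0 := by rw [hp]; exact mul_ne_zero (mul_ne_zero hY0 hd0) he0
  obtain ⟨q, hq⟩ : ∃ q, q = θ p := ⟨_, rfl⟩
  have hq0 : q ≠ 0 := by rw [hq]; exact fun h0 => hp0 ((map_eq_zero θ).1 h0)
  have hqp : θ q = p ^ 2 := by rw [hq]; exact H.sq p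
  have hqv : q = y ^ 2 * e * d ^ 2 := by
    rw [hq, hp, map_mul, map_mul, hY2, ← he, he2]
  have k1 : d ^ 2 * e ^ 2 * (h * k) ^ 2 = x ^ 2 * X ^ 2 := by rw [← hhd, ← hke]; ring
  have k2 : d ^ 2 * e ^ 2 * (k * h ^ 2) = x ^ 2 * X * e := by rw [← hhd, ← hke]; ring
  have k3 : e * d ^ 2 * (k * h ^ 2) = X * x ^ 2 := by rw [← hhd, ← hke]; ring
  have hqf : q = d * p + x ^ 2 * X := by
    rw [hqv, hp]
    linear_combination (e * d ^ 2) * hy2 + k3 - (Y * e * d ^ 2) * h2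
  have hsq : (y + Y) ^ 2 = (h * k) ^ 2 := by rw [hy]
  have r15 : d * e * p + (x * X) ^ 2 + (x ^ 2 * X) * e + p ^ 2 = 0 := by
    rw [hp]
    linear_combination (d ^ 2 * e ^ 2) * hsq - (d ^ 2 * e ^ 2) * hy2 + k1 - k2 +
      (x ^ 2 * X ^ 2 + d ^ 2 * e ^ 2 * (Y - y * Y)) * h2
  have hrel : Rel (x * X) (x ^ 2 * X) d e (a * c) (a ^ 2 * c) p :=
    { r0 := SzBase.rel0 hx hX0 hu hv hud hvd hA' hB hm hn
      r1 := SzBase.rel1 hx hX0 hu hv hud hvd hA' hB hm hn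
      r2 := SzBase.rel2 hx hX0 hu hv hud hvd hA' hB hm hn
      r3 := SzBase.rel3 hx hX0 hu hv hud hvd hA' hB hm hn
      r4 := SzBase.rel4 hx hX0 hu hv hud hvd hA' hB hm hn
      r5 := SzBase.rel5 hx hX0 hu hv hud hvd hA' hB hm hn
      r6 := SzBase.rel6 hx hX0 hu hv hud hvd hA' hB hm hn
      r7 := SzBase.rel7 hx hX0 hu hv hud hvd hA' hB hm hn
      r8 := SzBase.rel8 hx hX0 hu hv hud hvd hA' hB hm hn
      r9 := SzBase.rel9 hx hX0 hu hv hud hvd hA' hB hm hn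
      r10 := SzBase.rel10 hx hX0 hu hv hud hvd hA' hB hm hn
      r11 := SzBase.rel11 hx hX0 hu hv hud hvd hA' hB hm hn
      r12 := SzBase.rel12 hx hX0 hu hv hud hvd hA' hB hm hn
      r13 := SzBase.rel13 hx hX0 hu hv hud hvd hA' hB hm hn
      r14 := SzBase.rel14 hx hX0 hu hv hud hvd hA' hB hm hn
      r15 := r15 }
  obtain ⟨w, hw⟩ : ∃ w, w = x * X := ⟨_, rfl⟩
  obtain ⟨f, hf⟩ : ∃ f, f = x ^ 2 * X := ⟨_, rfl⟩
  obtain ⟨o, ho⟩ : ∃ o, o = a * c := ⟨_, rfl⟩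
  obtain ⟨r, hr⟩ : ∃ r, r = a ^ 2 * c := ⟨_, rfl⟩
  have tf : θ f = w ^ 2 := by
    rw [hf, hw, map_mul, map_pow, hX2, ← hX]; ring
  have tO : θ o = r := by
    rw [ho, hr, map_mul, ← hc, hca]; ring
  have tR : θ r = o ^ 2 := by rw [← tO]; exact H.sq o
  rw [← hw, ← hf, ← ho, ← hr] at hrel
  rw [← hf] at hqf
  obtain ⟨W0, hW0⟩ : ∃ W0, d ^ 2 * e + d * e + d * p + f + d + o + p = q * W0 :=
    ⟨(d ^ 2 * e + d * e + d * p + f + d + o + p) / q, (mul_div_cancel₀ _ hq0).symm⟩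
  obtain ⟨W1, hW1⟩ : ∃ W1, d * e + d + p = p * W1 := ⟨(d * e + d + p) / p, (mul_div_cancel₀ _ hp0).symm⟩
  obtain ⟨W2, hW2⟩ : ∃ W2, d * e * p + d * p + o * p + p ^ 2 + e = q * W2 :=
    ⟨(d * e * p + d * p + o * p + p ^ 2 + e) / q, (mul_div_cancel₀ _ hq0).symm⟩
  obtain ⟨K, hK⟩ : ∃ K, d ^ 2 * e * o * p + f * d ^ 2 * e + f * d * e * o + f * d * e * p + d ^ 3 * e + d ^ 2 * e * p + d * e * o * p + d * e * p ^ 2 + d * o * p ^ 2 + f * d * e + f * e * o + f * p ^ 2 + d ^ 2 * e + d ^ 2 * p + o * p ^ 2 + p ^ 3 + f ^ 2 + f * e + f * o + d ^ 2 + d * o + d * p + e * p + e = q * K :=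
    ⟨_ / q, (mul_div_cancel₀ _ hq0).symm⟩
  have t0 := congrArg θ hW0
  have t1 := congrArg θ hW1
  have t2 := congrArg θ hW2
  simp only [map_add, map_mul, map_pow, ← he, he2, ← hq, hqp, tf, tO] at t0 t1 t2
  refine ⟨w, f, d, e, o, r, p, q, W0, W1, W2, K, ?_⟩
  exact
    { pt :=
        { rel := hrel
          hp := hp0
          hq0 := hq0
          hq := hqf
          hW0 := hW0
          hW1 := hW1
          hW2 := hW2
          hT0 := by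
            linear_combination t0 + hrel.r15 - (e + 1) * hqf - (w ^ 2 + d * e * p + e * f) * h2
          hT1 := by
            linear_combination t1 - hqf
          hT2 := by
            linear_combination t2 - (e * d ^ 2 + e + r + q + d * p + f) * hqf - (d * p * f) * h2
          hK := hK }
      tp := hq.symm
      td := he.symm
      te := he2
      tf := tf
      tO := tO
      tR := tR
      e0 := he0 }

end Cfsg.Agent.H482.SzPt
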