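import Cfsg.Agent.H482.SzFixed
import Cfsg.Agent.H910.VFix3
import Cfsg.Agent.H64.VsPSLThree
import Cfsg.Agent.Classification.MinSimpleMain

/-!
# A finite group satisfying one of the laws `v_n` is solvable (from the minimal simple groups)
-/

set_option autoImplicit false

namespace Cfsg.Agent.H482.VMain

open Cfsg.Agent.H482.VSeq Cfsg.Agent.Classification

universe u

theorem not_law_of_concl {G : Type u} [Group G] (h : MinSimpleMain.Concl G) : ¬ Law G := by
  rcases h with ⟨p, hp, F, _, _, hF, ⟨e⟩⟩ | ⟨p, hp, hp2, F, _, _, hF, ⟨e⟩⟩ | ⟨p, hp, h5, F, _, _, hF, ⟨e⟩⟩ |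
      ⟨F, _, _, hF, ⟨e⟩⟩ | ⟨F, _, _, m, hm, hp, hF, ⟨e⟩⟩
  · intro hL
    exact (Cfsg.Agent.H910.VFix.fixedPair_psl2_two hp hF).not_law
      (hL.of_surjective (f := e.toMonoidHom) e.surjective)
  · intro hL
    exact (Cfsg.Agent.H910.VFix.fixedPair_psl2_three hp hp2 hF).not_law
      (hL.of_surjective (f := e.toMonoidHom) e.surjective)
  · intro hL
    exact (Cfsg.Agent.H910.VFix.fixedPair_psl2_prime hp hF (h5.imp id And.left)).not_law
      (hL.of_surjective (f := e.toMonoidHom) e.surjective)
  · intro hL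
    exact (Cfsg.Agent.H64.VsPSLThree.fixedPair_psl3 hF).not_law
      (hL.of_surjective (f := e.toMonoidHom) e.surjective)
  · intro hL
    exact (SzFixed.fixedPair_sz hm hp hF).not_law
      (hL.of_surjective (f := e.toMonoidHom) e.surjective)

/-- The main theorem, with the list of the minimal simple groups as hypothesis. -/
theorem solvable_iff_law (hcl : ∀ (H : Type u) [Group H] [Finite H], Cfsg.IsMinimalSimple H →
    MinSimpleMain.Concl H) {G : Type u} [Group G] [Finite G] : Group.IsSolvable G ↔ Law G :=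
  ⟨law_of_isSolvable, fun h => solvable_of_law (fun H _ _ hH => not_law_of_concl (hcl H hH)) G h⟩

end Cfsg.Agent.H482.VMain
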